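import Mathlib
import Cfsg.Prelude.Def_Local
import Cfsg.Prelude.Def_ChevE8
import Cfsg.Agent.StdO8.Aut
import Cfsg.Agent.H540.E8C.End

/-!
# S5919, the rows `Sp₆(2)` and `Ω₈⁺(2)`: interface (helper942)
-/

set_option autoImplicit false

namespace Cfsg.Agent.H942.S62

open Cfsg Cfsg.Lie Module
open Cfsg.Agent.H540.E8C.End

/-- `Sp₆(2)` -/
abbrev Sp2 : Type := ↥(Matrix.symplecticGroup (Fin 3) (ZMod 2))

/-- the natural module -/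
abbrev V6 : Type := Fin 3 ⊕ Fin 3 → ZMod 2

/-- the action -/
abbrev mv (g : Sp2) (v : V6) : V6 := (g : Matrix (Fin 3 ⊕ Fin 3) (Fin 3 ⊕ Fin 3) (ZMod 2)).mulVec v

/-- the first basis vector -/
def e0 : V6 := Pi.single (Sum.inl 0) 1

/-- the transvection at `e0` -/
def t0 : Sp2 := ⟨Matrix.fromBlocks 1 !![1, 0, 0; 0, 0, 0; 0, 0, 0] 0 1,
  SymplecticGroup.mem_iff.2 (by decide +kernel)⟩

/-- an element of order 5, trivial on the first hyperbolic plane -/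
def y0 : Sp2 := ⟨Matrix.fromBlocks !![1, 0, 0; 0, 0, 1; 0, 1, 1] !![0, 0, 0; 0, 0, 0; 0, 1, 0]
  !![0, 0, 0; 0, 1, 0; 0, 1, 0] !![1, 0, 0; 0, 0, 1; 0, 0, 0], SymplecticGroup.mem_iff.2 (by decide +kernel)⟩

theorem y0_pow : y0 ^ 5 = 1 := by decide +kernel

theorem y0_ne : y0 ≠ 1 := by decide +kernel

theorem comm0 : t0 * y0 = y0 * t0 := by decide +kernel

theorem mv_one (v : V6) : mv 1 v = v := Matrix.one_mulVec v

theorem mv_mul (g h : Sp2) (v : V6) : mv (g * h) v = mv g (mv h v) := by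
  show ((g : Matrix (Fin 3 ⊕ Fin 3) (Fin 3 ⊕ Fin 3) (ZMod 2)) *
    (h : Matrix (Fin 3 ⊕ Fin 3) (Fin 3 ⊕ Fin 3) (ZMod 2))).mulVec v = _
  rw [← Matrix.mulVec_mulVec]

/-- the stabiliser of `e0` -/
def P1 : Subgroup Sp2 where
  carrier := {g | mv g e0 = e0}
  one_mem' := mv_one e0
  mul_mem' := fun {a b} ha hb => by
    show mv (a * b) e0 = e0
    rw [mv_mul, hb, ha]
  inv_mem' := fun {a} ha => by
    show mv a⁻¹ e0 = e0
    have ha' : mv a e0 = e0 := ha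
    conv_lhs => rw [← ha']
    rw [← mv_mul, inv_mul_cancel, mv_one]

/-- **The numbers** (helper942). -/
def NumSp : Prop := ∀ (F : Sp2 →* E) (_ : Function.Injective F),
  4 ≤ finrank (ZMod 3) ↥(fixV F.range) ∧
  finrank (ZMod 3) ↥(fixV (P1.map F)) ≤ 7 ∧
  (∃ x' : E, x' ^ 2 = 1 ∧ x' ≠ 1 ∧ Commute (F y0) x' ∧ ∀ v : LL, ac (F y0) v = v → ac x' v = v) ∧
  (∃ v : LL, ac (F y0) v = v ∧ ac (F t0) v ≠ v)

/-- **Task B1.** Automorphisms of `Sp₆(2)` are inner. -/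
def AutSp : Prop := ∀ α : MulAut Sp2, ∃ g : Sp2, α = MulAut.conj g

/-- **Task B2.** The involutions commuting with `y0`. -/
def InvY0 : Prop := ∀ x : Sp2, x * x = 1 → x ≠ 1 → x * y0 = y0 * x → ∃ s : Sp2, s * y0 = y0 * s ∧ x = s * t0 * s⁻¹

/-- **Task D1.** `Sp₆(2)` in `Ω₈⁺(2)` as the stabiliser of a nonsingular vector `a`; `φ'` the same for an orthogonal
nonsingular vector. -/
def EmbO8 : Prop := ∃ φ φ' : Sp2 →* ↥StdO8.Model.Om, Function.Injective φ ∧ Function.Injective φ' ∧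
  φ.range ⊔ φ'.range = ⊤ ∧ (∀ g ∈ P1, φ g ∈ φ'.range) ∧
  (∃ a : StdO8.Model.V, a ≠ 0 ∧ (φ y0 : StdO8.Model.V ≃ₗ[ZMod 2] StdO8.Model.V) a = a) ∧
  StdO8.Aut.IsC2 (φ t0 : StdO8.Model.V ≃ₗ[ZMod 2] StdO8.Model.V)

/-- **Task D2.** Automorphisms `α` of `Ω₈⁺(2)` of order at most two centralising an element `y` of order 5 fixing a
non-zero vector; `t` a `c₂`-involution commuting with `y`. -/
def AutO8 : Prop := ∀ (y t : ↥StdO8.Model.Om) (_ : y ^ 5 = 1) (_ : y ≠ 1)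
  (_ : ∃ a : StdO8.Model.V, a ≠ 0 ∧ (y : StdO8.Model.V ≃ₗ[ZMod 2] StdO8.Model.V) a = a)
  (_ : StdO8.Aut.IsC2 (t : StdO8.Model.V ≃ₗ[ZMod 2] StdO8.Model.V)) (_ : t * y = y * t)
  (α : MulAut ↥StdO8.Model.Om) (_ : ∀ g, α (α g) = g) (_ : α y = y),
  α = 1 ∨
  (∃ c : ↥StdO8.Model.Om, c * y = y * c ∧ α = MulAut.conj (c * t * c⁻¹)) ∨
  (∃ c r : ↥StdO8.Model.Om, c * y = y * c ∧ r * y = y * r ∧ α r * r⁻¹ = c * t * c⁻¹)

/-- **The row `Sp₆(2)`.** -/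
def RowSp : Prop := ∀ (H : Subgroup E)
  (_ : Nonempty (↥(Cfsg.generalizedFittingSubgroup ↥H) ≃* ↥(Matrix.symplecticGroup (Fin 3) (ZMod 2)))), ¬ IsCoatom H

/-- **The row `Ω₈⁺(2)`.** -/
def RowO8 : Prop := ∀ (H : Subgroup E)
  (_ : Nonempty (↥(Cfsg.generalizedFittingSubgroup ↥H) ≃* Cfsg.Omega (ZMod 2) (Cfsg.quadFormPlus 4 (ZMod 2)))),
  ¬ IsCoatom H

end Cfsg.Agent.H942.S62
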