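import Mathlib

/-!
# The linear system of `Sp₆(2)` has one solution
-/

set_option autoImplicit false
set_option maxRecDepth 100000

namespace Cfsg.Agent.H942.S62

/-- scalar product -/
def dot : List ℕ → List ℕ → ℕ
  | x :: xs, y :: ys => x * y + dot xs ys
  | _, _ => 0

/-- divisibility and size -/
def okE (p : ℕ × List ℕ) (u : List ℕ) : Bool := Nat.beq (dot p.2 u % p.1) 0 && Nat.ble 8 (dot p.2 u / p.1)

/-- monotonicity -/
def leE (p q : ℕ × List ℕ) (u : List ℕ) : Bool := Nat.ble (dot q.2 u / q.1) (dot p.2 u / p.1)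

theorem okE_of {n d : ℕ} {c u : List ℕ} (hn : 0 < n) (h : dot c u = n * (d + 8)) : okE (n, c) u = true := by
  rw [okE, Bool.and_eq_true]
  constructor
  · show Nat.beq (dot c u % n) 0 = true
    rw [h, Nat.mul_mod_right]
    rfl
  · show Nat.ble 8 (dot c u / n) = true
    rw [h, Nat.mul_div_cancel_left _ hn, Nat.ble_eq]
    omega

theorem leE_of {n d n' d' : ℕ} {c c' u : List ℕ} (hn : 0 < n) (h : dot c u = n * (d + 8)) (hn' : 0 < n')
    (h' : dot c' u = n' * (d' + 8)) (hd : d' ≤ d) : leE (n, c) (n', c') u = true := by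
  show Nat.ble (dot c' u / n') (dot c u / n) = true
  rw [h, h', Nat.mul_div_cancel_left _ hn, Nat.mul_div_cancel_left _ hn', Nat.ble_eq]
  omega

/-- the possible values at the elements of order 4 with given square -/
def dom (x : ℕ) : List ℕ := bif Nat.beq x 0 then [8, 16, 72] else [4, 12, 36, 140]

/-- the tables -/
def q7a : ℕ × List ℕ := (16, [1, 0, 5, 10, 0, 0, 0, 0, 0, 0])
def q7b : ℕ × List ℕ := (32, [1, 0, 5, 14, 0, 4, 0, 0, 0, 8])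
def q6a : ℕ × List ℕ := (32, [1, 1, 15, 15, 0, 0, 0, 0, 0, 0])
def q6b : ℕ × List ℕ := (64, [1, 1, 19, 15, 4, 0, 24, 0, 0, 0])
def q5a : ℕ × List ℕ := (8, [1, 0, 1, 2, 0, 0, 4, 0, 0, 0])
def q5b : ℕ × List ℕ := (16, [1, 1, 1, 3, 2, 4, 4, 0, 0, 0])
def q4a : ℕ × List ℕ := (64, [1, 7, 7, 21, 28, 0, 0, 0, 0, 0])
def q4b : ℕ × List ℕ := (128, [1, 7, 11, 25, 36, 4, 12, 8, 8, 16])
def q3a : ℕ × List ℕ := (16, [1, 0, 3, 0, 0, 6, 6, 0, 0, 0])
def q3b : ℕ × List ℕ := (32, [1, 0, 3, 0, 16, 6, 6, 0, 0, 0])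
def q2a : ℕ × List ℕ := (32, [1, 0, 1, 6, 4, 0, 4, 0, 0, 16])
def q2b : ℕ × List ℕ := (64, [1, 0, 1, 14, 12, 4, 8, 8, 0, 16])
def q1a : ℕ × List ℕ := (64, [1, 1, 7, 3, 28, 12, 12, 0, 0, 0])
def q1b : ℕ × List ℕ := (128, [1, 3, 11, 13, 36, 12, 20, 8, 8, 16])
def q1c : ℕ × List ℕ := (256, [1, 3, 11, 13, 36, 12, 52, 24, 24, 80])

/-- all conditions -/
def good (u : List ℕ) : Bool :=
  okE q7a u && okE q6a u && okE q4a u && okE q5a u && okE q3a u && okE q3b u && okE q5b u && okE q6b u &&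
  okE q1a u && okE q7b u && okE q4b u && okE q2a u && okE q2b u && okE q1b u && okE q1c u &&
  leE q7a q7b u && leE q6a q6b u && leE q5a q5b u && leE q4a q4b u && leE q3a q3b u && leE q2a q2b u &&
  leE q1a q1b u && leE q1b q1c u

/-- the solution -/
def target (u1 u2 u3 u4 u5 u6 u7 u8 u9 : ℕ) : Bool :=
  Nat.beq u1 32 && Nat.beq u2 0 && Nat.beq u3 32 && Nat.beq u4 0 && Nat.beq u5 72 && Nat.beq u6 8 && Nat.beq u7 12 &&
  Nat.beq u8 12 && Nat.beq u9 12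

/-- **The certificate.** -/
theorem cert : ([0, 32].all fun u1 => [0, 32].all fun u2 => [0, 32].all fun u3 => [0, 32].all fun u4 =>
    (dom u2).all fun u5 => (dom u2).all fun u6 => (dom u3).all fun u7 => (dom u3).all fun u8 => (dom u3).all fun u9 =>
    (!good [256, u1, u2, u3, u4, u5, u6, u7, u8, u9]) || target u1 u2 u3 u4 u5 u6 u7 u8 u9) = true := by
  decide +kernel

theorem cert' {u1 u2 u3 u4 u5 u6 u7 u8 u9 : ℕ} (h1 : u1 = 0 ∨ u1 = 32) (h2 : u2 = 0 ∨ u2 = 32)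
    (h3 : u3 = 0 ∨ u3 = 32) (h4 : u4 = 0 ∨ u4 = 32) (h5 : u5 ∈ dom u2) (h6 : u6 ∈ dom u2) (h7 : u7 ∈ dom u3)
    (h8 : u8 ∈ dom u3) (h9 : u9 ∈ dom u3) (h : good [256, u1, u2, u3, u4, u5, u6, u7, u8, u9] = true) :
    u1 = 32 ∧ u2 = 0 ∧ u3 = 32 ∧ u4 = 0 ∧ u5 = 72 ∧ u6 = 8 ∧ u7 = 12 ∧ u8 = 12 ∧ u9 = 12 := by
  have c := cert
  rw [List.all_eq_true] at c
  have c1 := c u1 (by simpa using h1)
  rw [List.all_eq_true] at c1
  have c2 := c1 u2 (by simpa using h2)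
  rw [List.all_eq_true] at c2
  have c3 := c2 u3 (by simpa using h3)
  rw [List.all_eq_true] at c3
  have c4 := c3 u4 (by simpa using h4)
  rw [List.all_eq_true] at c4
  have c5 := c4 u5 h5
  rw [List.all_eq_true] at c5
  have c6 := c5 u6 h6
  rw [List.all_eq_true] at c6
  have c7 := c6 u7 h7
  rw [List.all_eq_true] at c7
  have c8 := c7 u8 h8
  rw [List.all_eq_true] at c8
  have c9 := c8 u9 h9
  rw [h] at c9
  simp only [target, Bool.not_true, Bool.false_or, Bool.and_eq_true] at c9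
  obtain ⟨⟨⟨⟨⟨⟨⟨⟨e1, e2⟩, e3⟩, e4⟩, e5⟩, e6⟩, e7⟩, e8⟩, e9⟩ := c9
  exact ⟨Nat.eq_of_beq_eq_true e1, Nat.eq_of_beq_eq_true e2, Nat.eq_of_beq_eq_true e3, Nat.eq_of_beq_eq_true e4,
    Nat.eq_of_beq_eq_true e5, Nat.eq_of_beq_eq_true e6, Nat.eq_of_beq_eq_true e7, Nat.eq_of_beq_eq_true e8,
    Nat.eq_of_beq_eq_true e9⟩

end Cfsg.Agent.H942.S62
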