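import Mathlib
import Cfsg.Agent.H942.S62.Iface
import Cfsg.Agent.H942.LMat
import Cfsg.Agent.H942.Enum
import Cfsg.Agent.H942.Forest
import Cfsg.Agent.LieClassical.SympTransvection
import Cfsg.Agent.S0765

/-!
# `Sp₆(2)`: elements as lists of six numbers
-/

set_option autoImplicit false
set_option maxRecDepth 100000

namespace Cfsg.Agent.H942.S62

open Cfsg.Agent.H942.LMat Cfsg.Agent.H942.Enum

/-! ### codes -/

/-- the code of a vector -/
def rc (c : V6) : ℕ := (c (.inl 0)).val + 2 * ((c (.inl 1)).val + 2 * ((c (.inl 2)).val +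
  2 * ((c (.inr 0)).val + 2 * ((c (.inr 1)).val + 2 * ((c (.inr 2)).val + 2 * 0)))))

/-- a row vector times a matrix -/
def rowX : List ℕ → ℕ → ℕ
  | [], _ => 0
  | x :: xs, r => Nat.xor (bif Nat.beq (r % 2) 1 then x else 0) (rowX xs (r / 2))

/-- the product -/
def mulC (a b : List ℕ) : List ℕ := a.map (rowX b)

/-- the rows of an element -/
def row (g : Sp2) (i : Fin 3 ⊕ Fin 3) : V6 := fun j => (g : Matrix (Fin 3 ⊕ Fin 3) (Fin 3 ⊕ Fin 3) (ZMod 2)) i j

/-- the code of an element -/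
def enc (g : Sp2) : List ℕ := [rc (row g (.inl 0)), rc (row g (.inl 1)), rc (row g (.inl 2)),
  rc (row g (.inr 0)), rc (row g (.inr 1)), rc (row g (.inr 2))]

theorem xorb (v w : ZMod 2) (r s : ℕ) : (v + w).val + 2 * Nat.xor r s = Nat.xor (v.val + 2 * r) (w.val + 2 * s) := by
  have h : ∀ (b c : Bool) (m n : ℕ), Nat.xor (Nat.bit b m) (Nat.bit c n) = Nat.bit (b ^^ c) (Nat.xor m n) := by
    intro b c m n
    exact Nat.xor_bit b m c n
  have h2 : ∀ v : ZMod 2, ∃ b : Bool, v = (bif b then 1 else 0) := by decide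
  obtain ⟨b, rfl⟩ := h2 v
  obtain ⟨c, rfl⟩ := h2 w
  have h3 := h b c r s
  have hb : ∀ (b : Bool) (r : ℕ), Nat.bit b r = (bif b then (1 : ZMod 2) else 0).val + 2 * r := by
    intro b r
    cases b
    · show 2 * r = 0 + 2 * r
      omega
    · show 2 * r + 1 = 1 + 2 * r
      omega
  rw [hb, hb, hb] at h3
  rw [h3]
  cases b <;> cases c <;> rfl

theorem rc_add (a b : V6) : rc (a + b) = Nat.xor (rc a) (rc b) := by
  unfold rc
  simp only [Pi.add_apply]
  rw [← xorb, ← xorb, ← xorb, ← xorb, ← xorb, ← xorb]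
  rfl

theorem rc_zero : rc 0 = 0 := rfl

theorem rc_smul (z : ZMod 2) (a : V6) : rc (z • a) = bif Nat.beq z.val 1 then rc a else 0 := by
  have h2 : z = 0 ∨ z = 1 := by revert z; decide
  rcases h2 with rfl | rfl
  · rw [zero_smul, rc_zero]; rfl
  · rw [one_smul]; rfl

theorem rc_inj {a b : V6} (h : rc a = rc b) : a = b := by
  have key : ∀ (v w : ZMod 2) (r s : ℕ), v.val + 2 * r = w.val + 2 * s → v = w ∧ r = s := by
    intro v w r s h
    have h1 := v.val_lt
    have h2 := w.val_lt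
    have h3 : v.val = w.val := by omega
    exact ⟨ZMod.val_injective 2 h3, by omega⟩
  unfold rc at h
  obtain ⟨h0, h⟩ := key _ _ _ _ h
  obtain ⟨h1, h⟩ := key _ _ _ _ h
  obtain ⟨h2, h⟩ := key _ _ _ _ h
  obtain ⟨h3, h⟩ := key _ _ _ _ h
  obtain ⟨h4, h⟩ := key _ _ _ _ h
  obtain ⟨h5, h⟩ := key _ _ _ _ h
  funext i
  rcases i with i | i <;> fin_cases i
  exacts [h0, h1, h2, h3, h4, h5]

theorem rowX_cons (x : ℕ) (xs : List ℕ) (v : ZMod 2) (r : ℕ) :
    rowX (x :: xs) (v.val + 2 * r) = Nat.xor (bif Nat.beq v.val 1 then x else 0) (rowX xs r) := by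
  have h1 := v.val_lt
  have h2 : (v.val + 2 * r) % 2 = v.val := by omega
  have h3 : (v.val + 2 * r) / 2 = r := by omega
  rw [rowX, h2, h3]

theorem nxor_assoc (a b c : ℕ) : Nat.xor (Nat.xor a b) c = Nat.xor a (Nat.xor b c) := Nat.xor_assoc a b c

theorem nxor_zero (a : ℕ) : Nat.xor a 0 = a := Nat.xor_zero a

theorem rc_row_mul (g h : Sp2) (i : Fin 3 ⊕ Fin 3) : rc (row (g * h) i) = rowX (enc h) (rc (row g i)) := by
  have h1 : row (g * h) i = (row g i (.inl 0) • row h (.inl 0) + row g i (.inl 1) • row h (.inl 1) +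
      row g i (.inl 2) • row h (.inl 2)) + (row g i (.inr 0) • row h (.inr 0) + row g i (.inr 1) • row h (.inr 1) +
      row g i (.inr 2) • row h (.inr 2)) := by
    funext j
    show ((g : Matrix (Fin 3 ⊕ Fin 3) (Fin 3 ⊕ Fin 3) (ZMod 2)) *
      (h : Matrix (Fin 3 ⊕ Fin 3) (Fin 3 ⊕ Fin 3) (ZMod 2))) i j = _
    rw [Matrix.mul_apply, Fintype.sum_sum_type, Fin.sum_univ_three, Fin.sum_univ_three]
    rfl
  rw [h1, rc_add, rc_add, rc_add, rc_add, rc_add, rc_smul, rc_smul, rc_smul, rc_smul, rc_smul, rc_smul]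
  conv_rhs => unfold enc; unfold rc
  rw [rowX_cons, rowX_cons, rowX_cons, rowX_cons, rowX_cons, rowX_cons, rowX, nxor_zero, nxor_assoc, nxor_assoc,
    nxor_assoc]
  rfl

theorem enc_mul (g h : Sp2) : enc (g * h) = mulC (enc g) (enc h) := by
  conv_lhs => unfold enc
  rw [rc_row_mul, rc_row_mul, rc_row_mul, rc_row_mul, rc_row_mul, rc_row_mul]
  rfl

theorem enc_inj {g h : Sp2} (e : enc g = enc h) : g = h := by
  unfold enc at e
  simp only [List.cons.injEq] at e
  obtain ⟨e0, e1, e2, e3, e4, e5, -⟩ := e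
  have key : ∀ i, row g i = row h i := by
    intro i
    rcases i with i | i <;> fin_cases i
    exacts [rc_inj e0, rc_inj e1, rc_inj e2, rc_inj e3, rc_inj e4, rc_inj e5]
  apply Subtype.ext
  ext i j
  exact congrFun (key i) j

/-- the identity -/
def oneC : List ℕ := [1, 2, 4, 8, 16, 32]

theorem enc_one : enc 1 = oneC := by decide +kernel

/-! ### transvections -/

/-- a vector given by its code -/
def vec (k : ℕ) : V6 := Sum.elim ![((k % 2 : ℕ) : ZMod 2), ((k / 2 % 2 : ℕ) : ZMod 2), ((k / 4 % 2 : ℕ) : ZMod 2)]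
  ![((k / 8 % 2 : ℕ) : ZMod 2), ((k / 16 % 2 : ℕ) : ZMod 2), ((k / 32 % 2 : ℕ) : ZMod 2)]

/-- transvections -/
def tvw (k : ℕ) : Sp2 := Cfsg.Agent.LieClassical.SympTransvection.tvS 1 (vec k)

/-- codes of the transvections -/
def tvc (k : ℕ) : List ℕ := (List.range 6).map fun i =>
  Nat.xor (2 ^ i) (bif Nat.beq (k / 2 ^ i % 2) 1 then k / 8 + 8 * (k % 8) else 0)

theorem enc_tvw : ∀ k < 64, enc (tvw k) = tvc k := by decide +kernel

theorem vec_rc : ∀ w : V6, vec (rc w) = w := by decide +kernel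

theorem rc_lt (w : V6) : rc w < 64 := by
  have h0 := (w (.inl 0)).val_lt
  have h1 := (w (.inl 1)).val_lt
  have h2 := (w (.inl 2)).val_lt
  have h3 := (w (.inr 0)).val_lt
  have h4 := (w (.inr 1)).val_lt
  have h5 := (w (.inr 2)).val_lt
  unfold rc
  omega

/-- a subgroup containing all transvections is the whole group -/
theorem top_of_tvw {H : Subgroup Sp2} (h : ∀ k < 64, k ≠ 0 → tvw k ∈ H) : H = ⊤ := by
  rw [eq_top_iff, ← Cfsg.Agent.S0765.result (F := ZMod 2) (m := 3), Subgroup.closure_le]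
  rintro A ⟨w, c, hA⟩
  have hc : c = 0 ∨ c = 1 := (by decide : ∀ c : ZMod 2, c = 0 ∨ c = 1) c
  rcases hc with rfl | rfl
  · have : A = 1 := by
      apply Subtype.ext
      rw [hA, Cfsg.sympTransvection, zero_smul, add_zero]
      rfl
    rw [this]
    exact H.one_mem
  · have h1 : A = tvw (rc w) := by
      apply Subtype.ext
      rw [hA, tvw, vec_rc]
      rfl
    rw [h1]
    by_cases h2 : rc w = 0
    · have h3 : tvw (rc w) = 1 := by rw [h2]; decide +kernel
      rw [h3]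
      exact H.one_mem
    · exact h _ (rc_lt w) h2

end Cfsg.Agent.H942.S62
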