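import Mathlib
import Cfsg.Agent.H942.S62.DataA
import Cfsg.Agent.H942.S62.DataB
import Cfsg.Agent.H942.S62.Cert
import Cfsg.Agent.H942.E8Val

/-!
# The values of the character at the 2-elements of `Sp₆(2)`
-/

set_option autoImplicit false
set_option maxRecDepth 100000

namespace Cfsg.Agent.H942.S62

open Cfsg Cfsg.Lie Module IsLocalRing
open Cfsg.Agent.H657 Cfsg.Agent.H942.E8Alc Cfsg.Agent.H942.E8Val
open Cfsg.Agent.H942.LMat Cfsg.Agent.H942.Enum Cfsg.Agent.H942.Forest Cfsg.Agent.H942.Common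
open Cfsg.Agent.H540.E8C.End

/-! ### the representatives -/

theorem okR : fo.Rw.all okW = true := by decide +kernel

theorem Rlen : fo.Rw.length = 14 := by decide +kernel

theorem Flen : fo.Fo.length = 508 := by decide +kernel

theorem FoR : ∀ k < 14, wordC (fo.Rw.getD k []) = fo.Fo.getD k [] := by decide +kernel

theorem enc_rep {k : ℕ} (hk : k < 14) : enc (fo.rep k) = fo.Fo.getD k [] := by
  rw [← FoR k hk]
  refine enc_word ?_
  have h := okR
  rw [List.all_eq_true] at h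
  refine h _ ?_
  rw [List.getD_eq_getElem _ _ (by rw [Rlen]; exact hk)]
  exact List.getElem_mem _

theorem invC : ∀ k < 5, mulC (fo.Fo.getD k []) (fo.Fo.getD k []) = oneC := by decide +kernel

theorem neC : ∀ k < 14, k ≠ 0 → fo.Fo.getD k [] ≠ oneC := by decide +kernel

theorem fourC : ∀ k < 10, mulC (mulC (fo.Fo.getD k []) (fo.Fo.getD k [])) (mulC (fo.Fo.getD k []) (fo.Fo.getD k [])) =
    oneC := by decide +kernel

theorem rep_zero : fo.rep 0 = 1 := rfl

theorem rep_ne {k : ℕ} (hk : k < 14) (h0 : k ≠ 0) : fo.rep k ≠ 1 := by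
  intro h
  refine neC k hk h0 ?_
  rw [← enc_rep hk, h, enc_one]

theorem rep_sq {k : ℕ} (hk : k < 5) : fo.rep k ^ 2 = 1 := by
  apply enc_inj
  rw [pow_two, enc_mul, enc_rep (by omega), invC k hk, enc_one]

theorem rep_four {k : ℕ} (hk : k < 10) : fo.rep k ^ 4 = 1 := by
  apply enc_inj
  rw [show (4 : ℕ) = 2 * 2 from rfl, pow_mul, pow_two, pow_two, enc_mul, enc_mul, enc_rep (by omega), fourC k hk,
    enc_one]

theorem sqR : ∀ i < 5, mulC (fo.Fo.getD (i + 5) []) (fo.Fo.getD (i + 5) []) = fo.Fo.getD (sidx.getD i 0) [] ∧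
    sidx.getD i 0 < 508 ∧ fo.root.getD (sidx.getD i 0) 0 = bif Nat.blt i 2 then 2 else 3 := by decide +kernel

theorem rep_sq' {i : ℕ} (hi : i < 5) : ∃ x : Sp2, fo.rep (i + 5) ^ 2 = x⁻¹ * fo.rep (bif Nat.blt i 2 then 2 else 3) * x := by
  obtain ⟨h1, h2, h3⟩ := sqR i hi
  obtain ⟨g, x, hg, -, hgx⟩ := forest fo_ok _ (by rw [Flen]; exact h2)
  refine ⟨x, ?_⟩
  rw [← h3, ← hgx]
  apply enc_inj
  rw [pow_two, enc_mul, enc_rep (by omega), h1, hg]

theorem enc_y0 : enc y0 = fo.Fo.getD 10 [] := by decide +kernel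

theorem rep10 : fo.rep 10 = y0 := enc_inj (by rw [enc_rep (by norm_num), enc_y0])

theorem ypC : mulC (fo.Fo.getD 10 []) (fo.Fo.getD 10 []) = fo.Fo.getD 11 [] ∧
    mulC (fo.Fo.getD 11 []) (fo.Fo.getD 10 []) = fo.Fo.getD 12 [] ∧
    mulC (fo.Fo.getD 12 []) (fo.Fo.getD 10 []) = fo.Fo.getD 13 [] := by decide +kernel

theorem rep11 : fo.rep 11 = y0 ^ 2 := enc_inj (by
  rw [enc_rep (by norm_num), pow_two, enc_mul, enc_y0, ypC.1])

theorem rep12 : fo.rep 12 = y0 ^ 3 := enc_inj (by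
  rw [enc_rep (by norm_num), pow_succ, ← rep11, enc_mul, enc_y0, enc_rep (by norm_num), ypC.2.1])

theorem rep13 : fo.rep 13 = y0 ^ 4 := enc_inj (by
  rw [enc_rep (by norm_num), pow_succ, ← rep12, enc_mul, enc_y0, enc_rep (by norm_num), ypC.2.2])

/-! ### the values -/

section

variable {V : ValuationSubring ℂ} [CharP (ResidueField V) 3]

/-- the values at elements of order 4 -/
def domZ (x : ℤ) : List ℤ := if x = -8 then [0, 8, 64] else [-4, 4, 28, 132]

theorem exists_vals {F : Sp2 →* E} (hF : Function.Injective F) : ∃ t : ℕ → ℤ,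
    (∀ k < 14, bc 3 (adj V F) (fo.rep k) = t k) ∧ t 0 = 248 ∧ (∀ k, k = 1 ∨ k = 2 ∨ k = 3 ∨ k = 4 → t k = -8 ∨ t k = 24) ∧
    (∀ k, k = 5 ∨ k = 6 → t k ∈ domZ (t 2)) ∧ (∀ k, k = 7 ∨ k = 8 ∨ k = 9 → t k ∈ domZ (t 3)) ∧
    (t 11 = t 10 ∧ t 12 = t 10 ∧ t 13 = t 10) := by
  have h0 : ∀ k, ∃ z : ℤ, k < 14 → bc 3 (adj V F) (fo.rep k) = z := by
    intro k
    by_cases h1 : k < 10
    · obtain ⟨a, a2, a4, La, ea, ea2, ea4, fa, fa2, fa4⟩ := val8 V F (g := fo.rep k) (by
        rw [show (8 : ℕ) = 4 * 2 from rfl, pow_mul, rep_four h1, one_pow])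
      exact ⟨a, fun _ => ea⟩
    · by_cases h2 : k < 14
      · obtain ⟨z, hz, hz2, -⟩ := val5 V F (g := y0) y0_pow
        refine ⟨z, fun _ => ?_⟩
        have h3 : k = 10 ∨ k = 11 ∨ k = 12 ∨ k = 13 := by omega
        rcases h3 with rfl | rfl | rfl | rfl
        · rw [rep10]
          have := hz2 1 (by norm_num)
          rwa [pow_one] at this
        · rw [rep11]; exact hz2 2 (by norm_num)
        · rw [rep12]; exact hz2 3 (by norm_num)
        · rw [rep13]; exact hz2 4 (by norm_num)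
      · exact ⟨0, fun h => absurd h h2⟩
  choose t ht using h0
  have key : ∀ {k : ℕ}, k < 10 → ∃ a2 a4 : ℤ, (t k, a2, a4) ∈ L8 ∧ bc 3 (adj V F) (fo.rep k ^ 2) = a2 ∧
      (F (fo.rep k) = 1 ↔ t k = 248) ∧ (F (fo.rep k ^ 2) = 1 ↔ a2 = 248) ∧ a4 = 248 := by
    intro k hk
    obtain ⟨a, a2, a4, La, ea, ea2, ea4, fa, fa2, fa4⟩ := val8 V F (g := fo.rep k) (by
      rw [show (8 : ℕ) = 4 * 2 from rfl, pow_mul, rep_four hk, one_pow])
    have h1 : a = t k := by
      have : (a : ℂ) = t k := by rw [← ea, ht k (by omega)]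
      exact_mod_cast this
    subst h1
    exact ⟨a2, a4, La, ea2, fa, fa2, fa4.1 (by rw [rep_four hk, map_one])⟩
  refine ⟨t, ht, ?_, ?_, ?_, ?_, ?_⟩
  · obtain ⟨a2, a4, -, -, h, -⟩ := key (k := 0) (by norm_num)
    exact h.1 (by rw [rep_zero, map_one])
  · intro k hk
    have hk5 : k < 5 := by omega
    obtain ⟨a2, a4, La, -, h, h2, h4⟩ := key (k := k) (by omega)
    have h3 : a2 = 248 := h2.1 (by rw [rep_sq hk5, map_one])
    have h5 : t k ≠ 248 := by
      intro h6
      exact rep_ne (show k < 14 by omega) (by omega) (hF ((h.2 h6).trans (map_one F).symm))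
    rw [h3, h4] at La
    simp [L8] at La
    omega
  · intro k hk
    obtain ⟨a2, a4, La, e2, -, -, h4⟩ := key (k := k) (by omega)
    obtain ⟨x, hx⟩ := rep_sq' (i := k - 5) (by omega)
    have hk5 : k - 5 + 5 = k := by omega
    have hb : (bif Nat.blt (k - 5) 2 then 2 else 3) = 2 := by
      rcases hk with rfl | rfl <;> rfl
    rw [hk5, hb] at hx
    have h5 : a2 = t 2 := by
      have : (a2 : ℂ) = t 2 := by rw [← e2, hx, bc_conj', ht 2 (by norm_num)]
      exact_mod_cast this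
    rw [h4, h5] at La
    have h6 : t 2 = -8 ∨ t 2 = 24 := by
      obtain ⟨b2, b4, Lb, -, h, h2, h4⟩ := key (k := 2) (by omega)
      have h3 : b2 = 248 := h2.1 (by rw [rep_sq (by norm_num), map_one])
      have h5 : t 2 ≠ 248 := by
        intro h6
        exact rep_ne (show 2 < 14 by omega) (by omega) (hF ((h.2 h6).trans (map_one F).symm))
      rw [h3, h4] at Lb
      simp [L8] at Lb
      omega
    unfold domZ
    rcases h6 with h6 | h6 <;> rw [h6] at La ⊢ <;> simp [L8] at La ⊢ <;> omega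
  · intro k hk
    obtain ⟨a2, a4, La, e2, -, -, h4⟩ := key (k := k) (by omega)
    obtain ⟨x, hx⟩ := rep_sq' (i := k - 5) (by omega)
    have hk5 : k - 5 + 5 = k := by omega
    have hb : (bif Nat.blt (k - 5) 2 then 2 else 3) = 3 := by
      rcases hk with rfl | rfl | rfl <;> rfl
    rw [hk5, hb] at hx
    have h5 : a2 = t 3 := by
      have : (a2 : ℂ) = t 3 := by rw [← e2, hx, bc_conj', ht 3 (by norm_num)]
      exact_mod_cast this
    rw [h4, h5] at La
    have h6 : t 3 = -8 ∨ t 3 = 24 := by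
      obtain ⟨b2, b4, Lb, -, h, h2, h4⟩ := key (k := 3) (by omega)
      have h3 : b2 = 248 := h2.1 (by rw [rep_sq (by norm_num), map_one])
      have h5 : t 3 ≠ 248 := by
        intro h6
        exact rep_ne (show 3 < 14 by omega) (by omega) (hF ((h.2 h6).trans (map_one F).symm))
      rw [h3, h4] at Lb
      simp [L8] at Lb
      omega
    unfold domZ
    rcases h6 with h6 | h6 <;> rw [h6] at La ⊢ <;> simp [L8] at La ⊢ <;> omega
  · obtain ⟨z, -, hz2, -⟩ := val5 V F (g := y0) y0_pow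
    have e1 := ht 10 (by norm_num)
    have e2 := ht 11 (by norm_num)
    have e3 := ht 12 (by norm_num)
    have e4 := ht 13 (by norm_num)
    have f1 := hz2 1 (by norm_num)
    rw [pow_one] at f1
    rw [rep10, f1] at e1
    rw [rep11, hz2 2 (by norm_num)] at e2
    rw [rep12, hz2 3 (by norm_num)] at e3
    rw [rep13, hz2 4 (by norm_num)] at e4
    refine ⟨?_, ?_, ?_⟩
    · exact_mod_cast e2.symm.trans e1
    · exact_mod_cast e3.symm.trans e1
    · exact_mod_cast e4.symm.trans e1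

end

end Cfsg.Agent.H942.S62
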