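import Mathlib
import Cfsg.Agent.H942.S62.Vals

/-!
# The dimensions of the fixed spaces
-/

set_option autoImplicit false
set_option maxRecDepth 100000

namespace Cfsg.Agent.H942.S62

open Cfsg Cfsg.Lie Module IsLocalRing
open Cfsg.Agent.H657 Cfsg.Agent.H942.E8Alc Cfsg.Agent.H942.E8Val
open Cfsg.Agent.H942.LMat Cfsg.Agent.H942.Enum Cfsg.Agent.H942.Forest Cfsg.Agent.H942.Common
open Cfsg.Agent.H540.E8C.End

/-- the counts -/
def cc (D : TD) (n : ℕ) : List ℕ := (List.range 14).map (cntK n (fun i => fo.root.getD (D.idx.getD i 0) 0))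

theorem c1a : cc tb1 64 = [1, 1, 7, 3, 28, 12, 12, 0, 0, 0, 0, 0, 0, 0] := by decide +kernel
theorem c1b : cc tb1 128 = [1, 3, 11, 13, 36, 12, 20, 8, 8, 16, 0, 0, 0, 0] := by decide +kernel
theorem c1c : cc tb1 256 = [1, 3, 11, 13, 36, 12, 52, 24, 24, 80, 0, 0, 0, 0] := by decide +kernel
theorem c2a : cc tb2 32 = [1, 0, 1, 6, 4, 0, 4, 0, 0, 16, 0, 0, 0, 0] := by decide +kernel
theorem c2b : cc tb2 64 = [1, 0, 1, 14, 12, 4, 8, 8, 0, 16, 0, 0, 0, 0] := by decide +kernel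
theorem c3a : cc tb3 16 = [1, 0, 3, 0, 0, 6, 6, 0, 0, 0, 0, 0, 0, 0] := by decide +kernel
theorem c3b : cc tb3 32 = [1, 0, 3, 0, 16, 6, 6, 0, 0, 0, 0, 0, 0, 0] := by decide +kernel
theorem c4a : cc tb4 64 = [1, 7, 7, 21, 28, 0, 0, 0, 0, 0, 0, 0, 0, 0] := by decide +kernel
theorem c4b : cc tb4 128 = [1, 7, 11, 25, 36, 4, 12, 8, 8, 16, 0, 0, 0, 0] := by decide +kernel
theorem c5a : cc tb5 8 = [1, 0, 1, 2, 0, 0, 4, 0, 0, 0, 0, 0, 0, 0] := by decide +kernel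
theorem c5b : cc tb5 16 = [1, 1, 1, 3, 2, 4, 4, 0, 0, 0, 0, 0, 0, 0] := by decide +kernel
theorem c6a : cc tb6 32 = [1, 1, 15, 15, 0, 0, 0, 0, 0, 0, 0, 0, 0, 0] := by decide +kernel
theorem c6b : cc tb6 64 = [1, 1, 19, 15, 4, 0, 24, 0, 0, 0, 0, 0, 0, 0] := by decide +kernel
theorem c7a : cc tb7 16 = [1, 0, 5, 10, 0, 0, 0, 0, 0, 0, 0, 0, 0, 0] := by decide +kernel
theorem c7b : cc tb7 32 = [1, 0, 5, 14, 0, 4, 0, 0, 0, 8, 0, 0, 0, 0] := by decide +kernel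
theorem c8b : cc tb8 80 = [1, 0, 5, 10, 0, 0, 0, 0, 0, 0, 16, 16, 16, 16] := by decide +kernel

section

variable {M : Ideal AlgInt} {V : ValuationSubring ℂ} [CharP (ResidueField V) 3]

theorem eqn2 (hM : IsPModular 3 M) (hV : Above M V) (F : Sp2 →* E) {D : TD}
    (hT : chkT D = true) (hI : chkI fo D.E D.idx = true) {n m : ℕ} (hP : chkP D n m = true) (hn : n.Coprime 3)
    {t : ℕ → ℤ} (ht : ∀ k < 14, bc 3 (adj V F) (fo.rep k) = t k)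
    {a0 a1 a2 a3 a4 a5 a6 a7 a8 a9 a10 a11 a12 a13 : ℕ}
    (hc : cc D n = [a0, a1, a2, a3, a4, a5, a6, a7, a8, a9, a10, a11, a12, a13]) :
    a0 * t 0 + a1 * t 1 + a2 * t 2 + a3 * t 3 + a4 * t 4 + a5 * t 5 + a6 * t 6 + a7 * t 7 + a8 * t 8 + a9 * t 9 +
      a10 * t 10 + a11 * t 11 + a12 * t 12 + a13 * t 13 =
      (n : ℤ) * (finrank (ZMod 3) ↥(fixW F (D.Gw.take m)) : ℤ) := by
  have h1 := eqn hM hV F fo_ok hT hI hP hn (t := t) (fun k hk => ht k (by rw [Rlen] at hk; exact hk))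
  rw [Rlen] at h1
  rw [← h1]
  unfold cc at hc
  simp only [List.range_succ, List.range_zero, List.nil_append, List.map_cons, List.map_nil,
    List.cons_append, List.cons.injEq] at hc
  obtain ⟨e0, e1, e2, e3, e4, e5, e6, e7, e8, e9, e10, e11, e12, e13, -⟩ := hc
  simp only [Finset.sum_range_succ, Finset.sum_range_zero, zero_add]
  rw [e0, e1, e2, e3, e4, e5, e6, e7, e8, e9, e10, e11, e12, e13]

/-- **The dimensions.** -/
structure Dims (F : Sp2 →* E) : Prop where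
  d4a : finrank (ZMod 3) ↥(fixW F (tb4.Gw.take 6)) = 10
  d4b : finrank (ZMod 3) ↥(fixW F (tb4.Gw.take 7)) = 8
  d5a : finrank (ZMod 3) ↥(fixW F (tb5.Gw.take 2)) = 36
  d5b : finrank (ZMod 3) ↥(fixW F (tb5.Gw.take 3)) = 36
  d6a : finrank (ZMod 3) ↥(fixW F (tb6.Gw.take 5)) = 16
  d6b : finrank (ZMod 3) ↥(fixW F (tb6.Gw.take 6)) = 7
  d7a : finrank (ZMod 3) ↥(fixW F (tb7.Gw.take 4)) = 28
  d7b : finrank (ZMod 3) ↥(fixW F (tb7.Gw.take 5)) = 26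
  d8 : ∃ z : ℤ, (∀ k : ℕ, ¬ 5 ∣ k → bc 3 (adj V F) (y0 ^ k) = z) ∧
    448 + 64 * z = 80 * (finrank (ZMod 3) ↥(fixW F (tb8.Gw.take 5)) : ℤ)

theorem take_le {F : Sp2 →* E} (l : List (List ℕ)) {a b : ℕ} (h : a ≤ b) :
    finrank (ZMod 3) ↥(fixW F (l.take b)) ≤ finrank (ZMod 3) ↥(fixW F (l.take a)) :=
  Submodule.finrank_mono (fixW_anti fun _ hw => List.take_subset_take_left l h hw)

theorem conv {a0 a1 a2 a3 a4 a5 a6 a7 a8 a9 n d u1 u2 u3 u4 u5 u6 u7 u8 u9 : ℕ} {t : ℕ → ℤ}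
    (h0 : t 0 = 248) (hu1 : (u1 : ℤ) = t 1 + 8) (hu2 : (u2 : ℤ) = t 2 + 8) (hu3 : (u3 : ℤ) = t 3 + 8)
    (hu4 : (u4 : ℤ) = t 4 + 8) (hu5 : (u5 : ℤ) = t 5 + 8) (hu6 : (u6 : ℤ) = t 6 + 8) (hu7 : (u7 : ℤ) = t 7 + 8)
    (hu8 : (u8 : ℤ) = t 8 + 8) (hu9 : (u9 : ℤ) = t 9 + 8)
    (e : a0 * t 0 + a1 * t 1 + a2 * t 2 + a3 * t 3 + a4 * t 4 + a5 * t 5 + a6 * t 6 + a7 * t 7 + a8 * t 8 + a9 * t 9 +
      (0 : ℕ) * t 10 + (0 : ℕ) * t 11 + (0 : ℕ) * t 12 + (0 : ℕ) * t 13 = (n : ℤ) * (d : ℤ))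
    (hs : a0 + a1 + a2 + a3 + a4 + a5 + a6 + a7 + a8 + a9 = n) :
    dot [a0, a1, a2, a3, a4, a5, a6, a7, a8, a9] [256, u1, u2, u3, u4, u5, u6, u7, u8, u9] = n * (d + 8) := by
  have hs' : (a0 : ℤ) + a1 + a2 + a3 + a4 + a5 + a6 + a7 + a8 + a9 = n := by exact_mod_cast hs
  have h1 : ((dot [a0, a1, a2, a3, a4, a5, a6, a7, a8, a9] [256, u1, u2, u3, u4, u5, u6, u7, u8, u9] : ℕ) : ℤ) =
      ((n * (d + 8) : ℕ) : ℤ) := by
    simp only [dot]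
    push_cast
    rw [hu1, hu2, hu3, hu4, hu5, hu6, hu7, hu8, hu9]
    rw [h0] at e
    push_cast at e
    linear_combination e + 8 * hs'
  exact_mod_cast h1

theorem solve {n d s : ℕ} {c u : List ℕ} (h : dot c u = n * (d + 8)) (hn : 0 < n) (hc : dot c u = n * (s + 8)) :
    d = s := by
  have h1 : n * (d + 8) = n * (s + 8) := h.symm.trans hc
  have h2 := Nat.eq_of_mul_eq_mul_left hn h1
  omega

theorem n0 {x : ℤ} (h : x = -8 ∨ x = 24) : ∃ u : ℕ, (u : ℤ) = x + 8 ∧ (u = 0 ∨ u = 32) := by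
  rcases h with h | h
  · exact ⟨0, by rw [h]; norm_num, Or.inl rfl⟩
  · exact ⟨32, by rw [h]; norm_num, Or.inr rfl⟩

theorem n1 {x z : ℤ} {u : ℕ} (hu : (u : ℤ) = x + 8) (h0 : u = 0 ∨ u = 32) (hz : z ∈ domZ x) :
    ∃ w : ℕ, (w : ℤ) = z + 8 ∧ w ∈ dom u := by
  rcases h0 with rfl | rfl
  · have hx : x = -8 := by push_cast at hu; omega
    subst hx
    simp [domZ] at hz
    rcases hz with rfl | rfl | rfl
    · exact ⟨8, by norm_num, by decide⟩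
    · exact ⟨16, by norm_num, by decide⟩
    · exact ⟨72, by norm_num, by decide⟩
  · have hx : x = 24 := by push_cast at hu; omega
    subst hx
    simp [domZ] at hz
    rcases hz with rfl | rfl | rfl | rfl
    · exact ⟨4, by norm_num, by decide⟩
    · exact ⟨12, by norm_num, by decide⟩
    · exact ⟨36, by norm_num, by decide⟩
    · exact ⟨140, by norm_num, by decide⟩

theorem dims (hM : IsPModular 3 M) (hV : Above M V) {F : Sp2 →* E} (hF : Function.Injective F) : Dims (V := V) F := by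
  obtain ⟨t, ht, t0, tinv, t2, t3, t5⟩ := exists_vals (V := V) hF
  obtain ⟨u1, hu1, o1⟩ := n0 (tinv 1 (by norm_num))
  obtain ⟨u2, hu2, o2⟩ := n0 (tinv 2 (by norm_num))
  obtain ⟨u3, hu3, o3⟩ := n0 (tinv 3 (by norm_num))
  obtain ⟨u4, hu4, o4⟩ := n0 (tinv 4 (by norm_num))
  obtain ⟨u5, hu5, o5⟩ := n1 hu2 o2 (t2 5 (by norm_num))
  obtain ⟨u6, hu6, o6⟩ := n1 hu2 o2 (t2 6 (by norm_num))
  obtain ⟨u7, hu7, o7⟩ := n1 hu3 o3 (t3 7 (by norm_num))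
  obtain ⟨u8, hu8, o8⟩ := n1 hu3 o3 (t3 8 (by norm_num))
  obtain ⟨u9, hu9, o9⟩ := n1 hu3 o3 (t3 9 (by norm_num))
  have g1a := conv t0 hu1 hu2 hu3 hu4 hu5 hu6 hu7 hu8 hu9
    (eqn2 hM hV F tb1_ok tb1_idx tb1_p64 (by norm_num) ht c1a) rfl
  have g1b := conv t0 hu1 hu2 hu3 hu4 hu5 hu6 hu7 hu8 hu9
    (eqn2 hM hV F tb1_ok tb1_idx tb1_p128 (by norm_num) ht c1b) rfl
  have g1c := conv t0 hu1 hu2 hu3 hu4 hu5 hu6 hu7 hu8 hu9
    (eqn2 hM hV F tb1_ok tb1_idx tb1_p256 (by norm_num) ht c1c) rfl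
  have g2a := conv t0 hu1 hu2 hu3 hu4 hu5 hu6 hu7 hu8 hu9
    (eqn2 hM hV F tb2_ok tb2_idx tb2_p32 (by norm_num) ht c2a) rfl
  have g2b := conv t0 hu1 hu2 hu3 hu4 hu5 hu6 hu7 hu8 hu9
    (eqn2 hM hV F tb2_ok tb2_idx tb2_p64 (by norm_num) ht c2b) rfl
  have g3a := conv t0 hu1 hu2 hu3 hu4 hu5 hu6 hu7 hu8 hu9
    (eqn2 hM hV F tb3_ok tb3_idx tb3_p16 (by norm_num) ht c3a) rfl
  have g3b := conv t0 hu1 hu2 hu3 hu4 hu5 hu6 hu7 hu8 hu9
    (eqn2 hM hV F tb3_ok tb3_idx tb3_p32 (by norm_num) ht c3b) rfl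
  have g4a := conv t0 hu1 hu2 hu3 hu4 hu5 hu6 hu7 hu8 hu9
    (eqn2 hM hV F tb4_ok tb4_idx tb4_p64 (by norm_num) ht c4a) rfl
  have g4b := conv t0 hu1 hu2 hu3 hu4 hu5 hu6 hu7 hu8 hu9
    (eqn2 hM hV F tb4_ok tb4_idx tb4_p128 (by norm_num) ht c4b) rfl
  have g5a := conv t0 hu1 hu2 hu3 hu4 hu5 hu6 hu7 hu8 hu9
    (eqn2 hM hV F tb5_ok tb5_idx tb5_p8 (by norm_num) ht c5a) rfl
  have g5b := conv t0 hu1 hu2 hu3 hu4 hu5 hu6 hu7 hu8 hu9
    (eqn2 hM hV F tb5_ok tb5_idx tb5_p16 (by norm_num) ht c5b) rfl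
  have g6a := conv t0 hu1 hu2 hu3 hu4 hu5 hu6 hu7 hu8 hu9
    (eqn2 hM hV F tb6_ok tb6_idx tb6_p32 (by norm_num) ht c6a) rfl
  have g6b := conv t0 hu1 hu2 hu3 hu4 hu5 hu6 hu7 hu8 hu9
    (eqn2 hM hV F tb6_ok tb6_idx tb6_p64 (by norm_num) ht c6b) rfl
  have g7a := conv t0 hu1 hu2 hu3 hu4 hu5 hu6 hu7 hu8 hu9
    (eqn2 hM hV F tb7_ok tb7_idx tb7_p16 (by norm_num) ht c7a) rfl
  have g7b := conv t0 hu1 hu2 hu3 hu4 hu5 hu6 hu7 hu8 hu9
    (eqn2 hM hV F tb7_ok tb7_idx tb7_p32 (by norm_num) ht c7b) rfl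
  have e8b := eqn2 hM hV F tb8_ok tb8_idx tb8_p80 (by norm_num) ht c8b
  have hg : good [256, u1, u2, u3, u4, u5, u6, u7, u8, u9] = true := by
    unfold good
    simp only [Bool.and_eq_true]
    exact ⟨⟨⟨⟨⟨⟨⟨⟨⟨⟨⟨⟨⟨⟨⟨⟨⟨⟨⟨⟨⟨⟨okE_of (by norm_num) g7a, okE_of (by norm_num) g6a⟩, okE_of (by norm_num) g4a⟩,
      okE_of (by norm_num) g5a⟩, okE_of (by norm_num) g3a⟩, okE_of (by norm_num) g3b⟩, okE_of (by norm_num) g5b⟩,
      okE_of (by norm_num) g6b⟩, okE_of (by norm_num) g1a⟩, okE_of (by norm_num) g7b⟩, okE_of (by norm_num) g4b⟩,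
      okE_of (by norm_num) g2a⟩, okE_of (by norm_num) g2b⟩, okE_of (by norm_num) g1b⟩, okE_of (by norm_num) g1c⟩,
      leE_of (by norm_num) g7a (by norm_num) g7b (take_le _ (by norm_num))⟩,
      leE_of (by norm_num) g6a (by norm_num) g6b (take_le _ (by norm_num))⟩,
      leE_of (by norm_num) g5a (by norm_num) g5b (take_le _ (by norm_num))⟩,
      leE_of (by norm_num) g4a (by norm_num) g4b (take_le _ (by norm_num))⟩,
      leE_of (by norm_num) g3a (by norm_num) g3b (take_le _ (by norm_num))⟩,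
      leE_of (by norm_num) g2a (by norm_num) g2b (take_le _ (by norm_num))⟩,
      leE_of (by norm_num) g1a (by norm_num) g1b (take_le _ (by norm_num))⟩,
      leE_of (by norm_num) g1b (by norm_num) g1c (take_le _ (by norm_num))⟩
  obtain ⟨f1, f2, f3, f4, f5, f6, f7, f8, f9⟩ := cert' o1 o2 o3 o4 o5 o6 o7 o8 o9 hg
  subst f1 f2 f3 f4 f5 f6 f7 f8 f9
  obtain ⟨t11, t12, t13⟩ := t5
  refine ⟨solve g4a (by norm_num) (by decide +kernel), solve g4b (by norm_num) (by decide +kernel),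
    solve g5a (by norm_num) (by decide +kernel), solve g5b (by norm_num) (by decide +kernel),
    solve g6a (by norm_num) (by decide +kernel), solve g6b (by norm_num) (by decide +kernel),
    solve g7a (by norm_num) (by decide +kernel), solve g7b (by norm_num) (by decide +kernel), ?_⟩
  obtain ⟨z, -, hz, -⟩ := val5 V F (g := y0) y0_pow
  refine ⟨z, hz, ?_⟩
  have h10 : t 10 = z := by
    have h1 := ht 10 (by norm_num)
    have h2 := hz 1 (by norm_num)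
    rw [pow_one] at h2
    rw [rep10, h2] at h1
    exact_mod_cast h1.symm
  have h2 : t 2 = -8 := by push_cast at hu2; linarith
  have h3 : t 3 = 24 := by push_cast at hu3; linarith
  rw [t11, t12, t13, h10, t0, h2, h3] at e8b
  push_cast at e8b
  linear_combination e8b

end

end Cfsg.Agent.H942.S62
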