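import Mathlib
import Cfsg.Agent.H942.S62.Dims

/-!
# `Sp₆(2)` in `E₈(3)`: the numbers
-/

set_option autoImplicit false
set_option maxRecDepth 100000

namespace Cfsg.Agent.H942.S62

open Cfsg Cfsg.Lie Module IsLocalRing
open Cfsg.Agent.H657 Cfsg.Agent.H942.E8Alc Cfsg.Agent.H942.E8Val
open Cfsg.Agent.H942.LMat Cfsg.Agent.H942.Enum Cfsg.Agent.H942.Forest Cfsg.Agent.H942.Common
open Cfsg.Agent.H540.E8C.End

/-! ### conjugates of fixed spaces -/

/-- the action as a linear equivalence -/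
noncomputable def acE (g : E) : LL ≃ₗ[ZMod 3] LL where
  toFun := ac g
  invFun := ac g⁻¹
  map_add' := ac_add g
  map_smul' := fun _ _ => Matrix.mulVec_smul _ _ _
  left_inv := ac_inv_ac g
  right_inv := ac_ac_inv g

/-- the conjugate of a subspace -/
noncomputable def cj (g : E) (U : Submodule (ZMod 3) LL) : Submodule (ZMod 3) LL :=
  U.map (acE g : LL →ₗ[ZMod 3] LL)

theorem mem_cj {g : E} {U : Submodule (ZMod 3) LL} {v : LL} : v ∈ cj g U ↔ ∃ w ∈ U, ac g w = v := Iff.rfl

theorem finrank_cj (g : E) (U : Submodule (ZMod 3) LL) : finrank (ZMod 3) ↥(cj g U) = finrank (ZMod 3) ↥U :=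
  LinearEquiv.finrank_map_eq (acE g) U

theorem inf_ge {U U' W : Submodule (ZMod 3) LL} (h : U ≤ W) (h' : U' ≤ W) :
    finrank (ZMod 3) ↥U + finrank (ZMod 3) ↥U' ≤ finrank (ZMod 3) ↥(U ⊓ U') + finrank (ZMod 3) ↥W := by
  have h1 := Submodule.finrank_sup_add_finrank_inf_eq U U'
  have h2 : finrank (ZMod 3) ↥(U ⊔ U') ≤ finrank (ZMod 3) ↥W := Submodule.finrank_mono (sup_le h h')
  omega

/-- the check that `g` normalises modulo the table -/
def chkC (D : TD) (n : ℕ) (gc : List ℕ) (ws : List (List ℕ)) (ks : List ℕ) : Bool :=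
  ws.all okW && (List.range ws.length).all fun j => Nat.blt (ks.getD j 0) n &&
    beqL (mulC (wordC (ws.getD j [])) gc) (mulC gc (D.E.getD (ks.getD j 0) []))

theorem conj_fix {D : TD} (hT : chkT D = true) {n m : ℕ} (hP : chkP D n m = true) {F : Sp2 →* E} {g : Sp2}
    {gc : List ℕ} (hg : enc g = gc) {ws : List (List ℕ)} {ks : List ℕ} (hk : chkC D n gc ws ks = true)
    {w : LL} (hw : w ∈ fixW F (D.Gw.take m)) : ac (F g) w ∈ fixW F ws := by
  obtain ⟨e, he, hTab⟩ := exists_tab hT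
  obtain ⟨hTab', hn', hm'⟩ := restrict_tab hTab hP
  rw [← fixL_eq hTab' hm'] at hw
  unfold chkC at hk
  simp only [Bool.and_eq_true, List.all_eq_true, List.mem_range, Nat.blt_eq] at hk
  obtain ⟨hok, hk⟩ := hk
  intro x hx
  obtain ⟨j, hj, rfl⟩ := List.mem_iff_getElem.1 hx
  obtain ⟨h1, h2⟩ := hk j hj
  rw [List.getD_eq_getElem _ _ hj] at h2
  have h3 : wordE ws[j] * g = g * e (ks.getD j 0) := by
    apply enc_inj
    rw [enc_mul, enc_mul, enc_word (hok _ hx), hg, he _ (lt_of_lt_of_le h1 hn')]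
    exact beqL_eq h2
  have h4 : ac (F (e (ks.getD j 0))) w = w := hw _ (List.mem_map_of_mem (List.mem_range.2 h1))
  rw [← ac_mul, ← map_mul, h3, map_mul, ac_mul, h4]

theorem cj_le {D : TD} (hT : chkT D = true) {n m m' : ℕ} (hmm : m ≤ m') (hP : chkP D n m = true) {F : Sp2 →* E} {g : Sp2}
    {gc : List ℕ} (hg : enc g = gc) {ws : List (List ℕ)} {ks : List ℕ} (hk : chkC D n gc ws ks = true) :
    cj (F g) (fixW F (D.Gw.take m')) ≤ fixW F ws := by
  rintro _ ⟨w, hw, rfl⟩
  exact conj_fix hT hP hg hk (fixW_anti (fun _ h => List.take_subset_take_left _ hmm h) hw)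

/-! ### order 5 -/

theorem chk7 : chkC tb7 16 (fo.Fo.getD 10 []) (tb7.Gw.take 4) [8, 1, 15, 4] = true := by decide +kernel

theorem g7C : mulC (wordC [32, 34]) (wordC [32, 34]) = oneC ∧
    mulC (mulC (wordC [32, 34]) (fo.Fo.getD 10 [])) (wordC [32, 34]) = fo.Fo.getD 13 [] := by decide +kernel

theorem tb7_4 : wordE [32, 34] * wordE [32, 34] = 1 ∧ wordE [32, 34] * y0 * wordE [32, 34] = y0 ^ 4 := by
  have h1 : enc (wordE [32, 34]) = wordC [32, 34] := enc_word (by decide)
  constructor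
  · apply enc_inj
    rw [enc_mul, h1, g7C.1, enc_one]
  · apply enc_inj
    rw [enc_mul, enc_mul, h1, enc_y0, g7C.2, ← rep13, enc_rep (by norm_num)]

theorem word_y0 : wordE [4, 36, 38, 22] = y0 := rep10

theorem d8_ge {V : ValuationSubring ℂ} [CharP (ResidueField V) 3] {F : Sp2 →* E} (hD : Dims (V := V) F) :
    24 ≤ finrank (ZMod 3) ↥(fixW F (tb8.Gw.take 5)) := by
  have h1 : fixW F (tb7.Gw.take 5) ≤ fixW F (tb7.Gw.take 4) :=
    fixW_anti fun _ h => List.take_subset_take_left _ (by norm_num) h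
  have h2 : cj (F y0) (fixW F (tb7.Gw.take 5)) ≤ fixW F (tb7.Gw.take 4) :=
    cj_le tb7_ok (by norm_num) tb7_p16 enc_y0 chk7
  have h3 := inf_ge h1 h2
  rw [finrank_cj, hD.d7a, hD.d7b] at h3
  have h4 : fixW F (tb7.Gw.take 5) ⊓ cj (F y0) (fixW F (tb7.Gw.take 5)) ≤ fixW F (tb8.Gw.take 5) := by
    rintro v ⟨hv, w, hw, hwv⟩
    have hwv' : ac (F y0) w = v := hwv
    have h5 : ac (F (wordE [32, 34])) v = v := hv [32, 34] (by decide)
    have h6 : ac (F (wordE [32, 34])) w = w := hw [32, 34] (by decide)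
    obtain ⟨k1, k2⟩ := tb7_4
    have h7 : wordE [32, 34] * y0 = y0 ^ 4 * wordE [32, 34] := by
      rw [← k2, mul_assoc (wordE [32, 34] * y0), k1, mul_one]
    have h8 : ac (F (y0 ^ 3)) v = v := by
      have e1 : ac (F (wordE [32, 34])) (ac (F y0) w) = ac (F (y0 ^ 3)) (ac (F y0) w) := by
        rw [← ac_mul, ← map_mul, h7, map_mul, ac_mul, h6, ← ac_mul, ← map_mul, ← pow_succ]
      rw [hwv', h5] at e1
      exact e1.symm
    have h9 : ac (F y0) v = v := by
      have e2 : (y0 ^ 3) ∈ stS F v := h8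
      have e3 : (y0 ^ 3) ^ 2 ∈ stS F v := (stS F v).pow_mem e2 2
      rw [← pow_mul, show 3 * 2 = 5 + 1 from rfl, pow_succ, y0_pow, one_mul] at e3
      exact e3
    intro x hx
    have hx' : x = [4, 36, 38, 22] ∨ x ∈ tb7.Gw.take 5 := by
      have : ∀ x ∈ tb8.Gw.take 5, x = [4, 36, 38, 22] ∨ x ∈ tb7.Gw.take 5 := by decide
      exact this x hx
    rcases hx' with rfl | hx'
    · rw [word_y0]
      exact h9
    · exact hv x hx'
  have h5 := Submodule.finrank_mono (R := ZMod 3) h4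
  omega

/-- **Elements of order 5.** -/
def Val5 : Prop := ∀ (V : ValuationSubring ℂ) [CharP (ResidueField V) 3] (F : Sp2 →* E) (g : Sp2), g ^ 5 = 1 → F g ≠ 1 →
  ∃ t : ℤ, (t = -2 ∨ t = 3 ∨ t = 23) ∧ (∀ d : ℕ, ¬ 5 ∣ d → bc 3 (adj V F) (g ^ d) = t) ∧
    (t = 23 → ∃ x' : E, x' ^ 2 = 1 ∧ x' ≠ 1 ∧ Commute (F g) x' ∧ ∀ v : LL, ac (F g) v = v → ac x' v = v)

theorem partner (h5 : Val5) {V : ValuationSubring ℂ} [CharP (ResidueField V) 3] {F : Sp2 →* E}
    (hF : Function.Injective F) (hD : Dims (V := V) F) :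
    ∃ x' : E, x' ^ 2 = 1 ∧ x' ≠ 1 ∧ Commute (F y0) x' ∧ ∀ v : LL, ac (F y0) v = v → ac x' v = v := by
  obtain ⟨t, ht, hbc, hp⟩ := h5 V F y0 y0_pow (fun h => y0_ne (hF (h.trans (map_one F).symm)))
  obtain ⟨z, hz, hz2⟩ := hD.d8
  have h1 := d8_ge hD
  have h2 : z = t := by
    have e1 := hz 1 (by norm_num)
    have e2 := hbc 1 (by norm_num)
    rw [e1] at e2
    exact_mod_cast e2
  exact hp (by omega)

/-! ### order 10 -/

theorem bC : wordC [2, 3] = mulC (mulC (wordC [4, 5]) (wordC [6, 7])) (wordC [1]) := by decide +kernel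

theorem enc_t0 : enc t0 = wordC [1] := by decide +kernel

theorem w1 : wordE [1] = t0 := enc_inj (by rw [enc_word (by decide), enc_t0])

theorem order10 {V : ValuationSubring ℂ} [CharP (ResidueField V) 3] {F : Sp2 →* E} (hD : Dims (V := V) F) :
    ∃ v : LL, ac (F y0) v = v ∧ ac (F t0) v ≠ v := by
  by_contra hcon
  push Not at hcon
  have h1 : fixW F (tb8.Gw.take 5) ≤ fixW F (tb6.Gw.take 5) := by
    intro v hv
    have g0 : wordE [4, 5] ∈ stS F v := hv [4, 5] (by decide)
    have g1 : wordE [6, 7] ∈ stS F v := hv [6, 7] (by decide)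
    have g2 : wordE [32, 33] ∈ stS F v := hv [32, 33] (by decide)
    have g3 : wordE [16, 17] ∈ stS F v := hv [16, 17] (by decide)
    have gy : ac (F y0) v = v := by
      have := hv [4, 36, 38, 22] (by decide)
      rwa [word_y0] at this
    have g4 : wordE [1] ∈ stS F v := by
      rw [w1]
      exact hcon v gy
    have g5 : wordE [2, 3] ∈ stS F v := by
      have : wordE [2, 3] = wordE [4, 5] * wordE [6, 7] * wordE [1] := by
        apply enc_inj
        rw [enc_mul, enc_mul, enc_word (by decide), enc_word (by decide), enc_word (by decide), enc_word (by decide), bC]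
      rw [this]
      exact (stS F v).mul_mem ((stS F v).mul_mem g0 g1) g4
    intro x hx
    have hx' : ∀ x ∈ tb6.Gw.take 5, x = [1] ∨ x = [2, 3] ∨ x = [4, 5] ∨ x = [32, 33] ∨ x = [16, 17] := by decide
    rcases hx' x hx with rfl | rfl | rfl | rfl | rfl
    exacts [g4, g5, g0, g2, g3]
  have h2 := Submodule.finrank_mono (R := ZMod 3) h1
  have h3 := d8_ge hD
  rw [hD.d6a] at h2
  omega

/-! ### the stabiliser of a vector -/

theorem words6 : ∀ w ∈ tb6.Gw.take 6, mv (wordE w) e0 = e0 := by decide +kernel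

theorem p1_le {V : ValuationSubring ℂ} [CharP (ResidueField V) 3] {F : Sp2 →* E} (hD : Dims (V := V) F) :
    finrank (ZMod 3) ↥(fixV (P1.map F)) ≤ 7 := by
  rw [← hD.d6b]
  refine Submodule.finrank_mono fun v hv w hw => ?_
  exact hv _ (Subgroup.mem_map_of_mem F (words6 w hw))

/-! ### the whole group -/

/-- the words -/
def G9 : List (List ℕ) := tb4.Gw ++ [[32, 34], [40, 45], [51]]

/-- a path through the transvections -/
def path : List (ℕ × ℕ × ℕ) := [(1, 0, 0), (4, 8, 0), (6, 7, 1), (55, 9, 1), (7, 6, 2), (3, 8, 2), (52, 1, 3), (51, 2, 3), (53, 3, 3),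
  (50, 4, 3), (54, 6, 3), (23, 7, 3), (26, 8, 3), (5, 7, 4), (2, 6, 5), (48, 9, 5), (49, 4, 6), (20, 7, 6),
  (28, 8, 6), (17, 7, 7), (27, 8, 7), (21, 7, 8), (24, 8, 8), (16, 7, 9), (31, 8, 9), (22, 7, 10), (30, 8, 10),
  (36, 9, 11), (10, 6, 12), (56, 7, 12), (41, 9, 12), (18, 7, 15), (29, 8, 15), (19, 7, 16), (25, 8, 16),
  (13, 6, 18), (60, 7, 18), (47, 9, 18), (34, 9, 19), (11, 6, 20), (57, 7, 20), (40, 9, 20), (9, 6, 22),
  (58, 7, 22), (35, 9, 23), (15, 6, 24), (63, 7, 24), (37, 9, 25), (14, 6, 26), (62, 7, 26), (32, 2, 27),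
  (33, 4, 27), (38, 7, 27), (12, 8, 27), (39, 8, 28), (42, 1, 30), (45, 2, 30), (44, 8, 30), (61, 7, 32),
  (46, 9, 32), (8, 6, 34), (59, 7, 34), (43, 2, 37)]

/-- the check of the path -/
def chkPath : Bool :=
  let G := G9.map wordC
  G9.all okW && Nat.beq (path.getD 0 (0, 0, 0)).1 1 && (path.all fun p => Nat.blt p.1 64) &&
  ((List.range (path.length - 1)).all fun i =>
    let p := path.getD (i + 1) (0, 0, 0)
    Nat.blt p.2.1 G9.length && Nat.blt p.2.2 (i + 1) &&
      beqL (mulC (G.getD p.2.1 []) (tvc (path.getD p.2.2 (0, 0, 0)).1)) (mulC (tvc p.1) (G.getD p.2.1 []))) &&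
  (List.range 64).all fun k => Nat.beq k 0 || memN k (path.map Prod.fst)

theorem path_ok : chkPath = true := by decide +kernel

theorem of_memN {x : ℕ} : ∀ {l : List ℕ}, memN x l = true → x ∈ l
  | y :: ys, h => by
    rw [memN, Bool.or_eq_true] at h
    rcases h with h | h
    · rw [Nat.eq_of_beq_eq_true h]
      exact List.mem_cons_self
    · exact List.mem_cons_of_mem _ (of_memN h)

theorem top_of_G9 {H : Subgroup Sp2} (h : ∀ w ∈ G9, wordE w ∈ H) : H = ⊤ := by
  have hp := path_ok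
  unfold chkPath at hp
  simp only [Bool.and_eq_true, List.all_eq_true, List.mem_range, Nat.blt_eq] at hp
  obtain ⟨⟨⟨⟨hok, h0⟩, hlt⟩, hstep⟩, hall⟩ := hp
  have key : ∀ i < path.length, tvw (path.getD i (0, 0, 0)).1 ∈ H := by
    intro i
    induction i using Nat.strong_induction_on with
    | _ i ih =>
      intro hi
      cases i with
      | zero =>
        rw [Nat.eq_of_beq_eq_true h0]
        have := h [1] (by decide)
        rwa [wordE, wordE, mul_one] at this
      | succ i =>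
        obtain ⟨⟨h1, h2⟩, h3⟩ := hstep i (by omega)
        have h4 := ih _ h2 (by omega)
        have hm : G9.getD (path.getD (i + 1) (0, 0, 0)).2.1 [] ∈ G9 := by
          rw [List.getD_eq_getElem _ _ h1]
          exact List.getElem_mem h1
        have h5 := h _ hm
        have hlt' : ∀ j < path.length, (path.getD j (0, 0, 0)).1 < 64 := by
          intro j hj
          refine hlt _ ?_
          rw [List.getD_eq_getElem _ _ hj]
          exact List.getElem_mem hj
        rw [map_getD h1] at h3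
        have h6 : wordE (G9.getD (path.getD (i + 1) (0, 0, 0)).2.1 []) *
            tvw (path.getD (path.getD (i + 1) (0, 0, 0)).2.2 (0, 0, 0)).1 =
            tvw (path.getD (i + 1) (0, 0, 0)).1 * wordE (G9.getD (path.getD (i + 1) (0, 0, 0)).2.1 []) := by
          apply enc_inj
          rw [enc_mul, enc_mul, enc_word (hok _ hm), enc_tvw _ (hlt' _ (by omega)), enc_tvw _ (hlt' _ hi)]
          exact beqL_eq h3
        have h7 : tvw (path.getD (i + 1) (0, 0, 0)).1 = wordE (G9.getD (path.getD (i + 1) (0, 0, 0)).2.1 []) *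
            tvw (path.getD (path.getD (i + 1) (0, 0, 0)).2.2 (0, 0, 0)).1 *
            (wordE (G9.getD (path.getD (i + 1) (0, 0, 0)).2.1 []))⁻¹ := by
          rw [h6, mul_inv_cancel_right]
        rw [h7]
        exact H.mul_mem (H.mul_mem h5 h4) (H.inv_mem h5)
  refine top_of_tvw fun k hk hk0 => ?_
  have h1 := hall k hk
  rw [Bool.or_eq_true] at h1
  rcases h1 with h1 | h1
  · exact absurd (Nat.eq_of_beq_eq_true h1) hk0
  · obtain ⟨p, hp, rfl⟩ := List.mem_map.1 (of_memN h1)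
    obtain ⟨i, hi, rfl⟩ := List.mem_iff_getElem.1 hp
    have := key i hi
    rwa [List.getD_eq_getElem _ _ hi] at this

theorem chk4b : chkC tb4 64 (wordC [51, 53, 43, 46]) (tb4.Gw.take 6) [4, 16, 8, 1, 32, 2] = true := by decide +kernel

theorem chk4c : chkC tb4 64 (wordC [51, 52, 60, 63]) (tb4.Gw.take 6) [8, 63, 2, 16, 1, 32] = true := by decide +kernel

theorem bcC : mulC (wordC [32, 34]) (wordC [51, 53, 43, 46]) = mulC (wordC [51, 53, 43, 46]) (wordC [16, 17]) ∧
    mulC (wordC [40, 45]) (wordC [51, 52, 60, 63]) = mulC (wordC [51, 52, 60, 63]) (wordC [16, 17]) := by decide +kernel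

/-- codes of products of words -/
def prodC (ws : List (List ℕ)) : List ℕ → List ℕ
  | [] => oneC
  | i :: is => mulC (wordC (ws.getD i [])) (prodC ws is)

theorem prod_mem {ws : List (List ℕ)} (hok : ∀ w ∈ ws, okW w = true) {H : Subgroup Sp2} (h : ∀ w ∈ ws, wordE w ∈ H) :
    ∀ is : List ℕ, (∀ i ∈ is, i < ws.length) → ∃ g ∈ H, enc g = prodC ws is
  | [], _ => ⟨1, H.one_mem, enc_one⟩
  | i :: is, hi => by
    obtain ⟨g, hg, hg'⟩ := prod_mem hok h is fun j hj => hi j (List.mem_cons_of_mem _ hj)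
    have h1 : ws.getD i [] ∈ ws := by
      rw [List.getD_eq_getElem _ _ (hi i List.mem_cons_self)]
      exact List.getElem_mem _
    refine ⟨wordE (ws.getD i []) * g, H.mul_mem (h _ h1) hg, ?_⟩
    rw [enc_mul, enc_word (hok _ h1), hg']
    rfl

theorem xC : prodC (G9.take 9) [2, 4, 5, 6, 7, 8, 6, 8, 7] = wordC [38, 39, 1, 6, 50, 53] ∧
    prodC (G9.take 9) [5, 6, 5, 6] = wordC [6, 7] := by decide +kernel

theorem four_le {V : ValuationSubring ℂ} [CharP (ResidueField V) 3] {F : Sp2 →* E} (hD : Dims (V := V) F) :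
    4 ≤ finrank (ZMod 3) ↥(fixV F.range) := by
  have hU : fixW F (tb4.Gw.take 7) ≤ fixW F (tb4.Gw.take 6) :=
    fixW_anti fun _ h => List.take_subset_take_left _ (by norm_num) h
  have hb : enc (wordE [51, 53, 43, 46]) = wordC [51, 53, 43, 46] := enc_word (by decide)
  have hc : enc (wordE [51, 52, 60, 63]) = wordC [51, 52, 60, 63] := enc_word (by decide)
  have h2 : cj (F (wordE [51, 53, 43, 46])) (fixW F (tb4.Gw.take 7)) ≤ fixW F (tb4.Gw.take 6) :=
    cj_le tb4_ok (by norm_num) tb4_p64 hb chk4b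
  have h3 : cj (F (wordE [51, 52, 60, 63])) (fixW F (tb4.Gw.take 7)) ≤ fixW F (tb4.Gw.take 6) :=
    cj_le tb4_ok (by norm_num) tb4_p64 hc chk4c
  have h4 := inf_ge hU h2
  have h5 := inf_ge (inf_le_left.trans hU : fixW F (tb4.Gw.take 7) ⊓
    cj (F (wordE [51, 53, 43, 46])) (fixW F (tb4.Gw.take 7)) ≤ fixW F (tb4.Gw.take 6)) h3
  rw [finrank_cj, hD.d4a, hD.d4b] at h4
  rw [finrank_cj, hD.d4a, hD.d4b] at h5
  have h6 : (fixW F (tb4.Gw.take 7) ⊓ cj (F (wordE [51, 53, 43, 46])) (fixW F (tb4.Gw.take 7))) ⊓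
      cj (F (wordE [51, 52, 60, 63])) (fixW F (tb4.Gw.take 7)) ≤ fixV F.range := by
    rintro v ⟨⟨hv, wb, hwb, hvb⟩, wc, hwc, hvc⟩
    have hvb' : ac (F (wordE [51, 53, 43, 46])) wb = v := hvb
    have hvc' : ac (F (wordE [51, 52, 60, 63])) wc = v := hvc
    have ga : ∀ w ∈ tb4.Gw, wordE w ∈ stS F v := fun w hw => hv w hw
    have gb : wordE [32, 34] ∈ stS F v := by
      have e1 : wordE [32, 34] * wordE [51, 53, 43, 46] = wordE [51, 53, 43, 46] * wordE [16, 17] := by
        apply enc_inj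
        rw [enc_mul, enc_mul, hb, enc_word (by decide), enc_word (by decide), bcC.1]
      have e2 : ac (F (wordE [16, 17])) wb = wb := hwb [16, 17] (by decide)
      show ac (F (wordE [32, 34])) v = v
      rw [← hvb', ← ac_mul, ← map_mul, e1, map_mul, ac_mul, e2]
    have gc : wordE [40, 45] ∈ stS F v := by
      have e1 : wordE [40, 45] * wordE [51, 52, 60, 63] = wordE [51, 52, 60, 63] * wordE [16, 17] := by
        apply enc_inj
        rw [enc_mul, enc_mul, hc, enc_word (by decide), enc_word (by decide), bcC.2]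
      have e2 : ac (F (wordE [16, 17])) wc = wc := hwc [16, 17] (by decide)
      show ac (F (wordE [40, 45])) v = v
      rw [← hvc', ← ac_mul, ← map_mul, e1, map_mul, ac_mul, e2]
    have g8 : ∀ w ∈ G9.take 9, wordE w ∈ stS F v := by
      intro w hw
      have : ∀ w ∈ G9.take 9, w ∈ tb4.Gw ∨ w = [32, 34] ∨ w = [40, 45] := by decide
      rcases this w hw with h | rfl | rfl
      exacts [ga w h, gb, gc]
    have hok : ∀ w ∈ G9.take 9, okW w = true := by decide
    obtain ⟨x1, hx1, ex1⟩ := prod_mem hok g8 [2, 4, 5, 6, 7, 8, 6, 8, 7] (by decide)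
    obtain ⟨x2, hx2, ex2⟩ := prod_mem hok g8 [5, 6, 5, 6] (by decide)
    have e1 : x1 = wordE [38, 39, 1, 6, 50, 53] := enc_inj (by rw [ex1, xC.1, enc_word (by decide)])
    have e2 : x2 = wordE [6, 7] := enc_inj (by rw [ex2, xC.2, enc_word (by decide)])
    rw [e1] at hx1
    rw [e2] at hx2
    have h7 : v ∈ fixW F (tb5.Gw.take 2) := by
      intro w hw
      have : ∀ w ∈ tb5.Gw.take 2, w = [38, 39, 1, 6, 50, 53] ∨ w = [6, 7] := by decide
      rcases this w hw with rfl | rfl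
      exacts [hx1, hx2]
    have h8 : fixW F (tb5.Gw.take 3) = fixW F (tb5.Gw.take 2) :=
      Submodule.eq_of_le_of_finrank_eq (fixW_anti fun _ h => List.take_subset_take_left _ (by norm_num) h)
        (by rw [hD.d5a, hD.d5b])
    rw [← h8] at h7
    have g9 : wordE [51] ∈ stS F v := h7 [51] (by decide)
    have htop : stS F v = ⊤ := by
      refine top_of_G9 fun w hw => ?_
      have : ∀ w ∈ G9, w ∈ G9.take 9 ∨ w = [51] := by decide
      rcases this w hw with h | rfl
      exacts [g8 w h, g9]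
    rintro _ ⟨g, rfl⟩
    have : g ∈ stS F v := by rw [htop]; trivial
    exact this
  have h7 := Submodule.finrank_mono (R := ZMod 3) h6
  omega

/-- **The numbers.** -/
theorem numSp (h5 : Val5) : NumSp := by
  intro F hF
  obtain ⟨M, V, hM, hV, hch⟩ := exists_V
  have hD := dims hM hV hF
  exact ⟨four_le hD, p1_le hD, partner h5 hF hD, order10 hD⟩

end Cfsg.Agent.H942.S62
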