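import Mathlib
import Cfsg.Agent.H942.S62.Code
import Cfsg.Agent.H942.Common
import Cfsg.Agent.H451.L7.Dim

/-!
# Tables of subgroups of `Sp₆(2)`, conjugacy by a forest, dimensions of fixed spaces
-/

set_option autoImplicit false
set_option linter.unusedSectionVars false
set_option maxRecDepth 100000

namespace Cfsg.Agent.H942.S62

open Cfsg Cfsg.Lie Module IsLocalRing
open Cfsg.Agent.H657 Cfsg.Agent.H942.E8Alc
open Cfsg.Agent.H942.LMat Cfsg.Agent.H942.Enum Cfsg.Agent.H942.Forest Cfsg.Agent.H942.Common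
open Cfsg.Agent.H540.E8C.End

/-! ### words -/

/-- products of transvections -/
def wordE : List ℕ → Sp2
  | [] => 1
  | k :: w => tvw k * wordE w

/-- their codes -/
def wordC : List ℕ → List ℕ
  | [] => oneC
  | k :: w => mulC (tvc k) (wordC w)

/-- all letters are less than 64 -/
def okW (w : List ℕ) : Bool := w.all fun k => Nat.blt k 64

theorem enc_word : ∀ {w : List ℕ}, okW w = true → enc (wordE w) = wordC w
  | [], _ => enc_one
  | k :: w, h => by
    rw [okW, List.all_cons, Bool.and_eq_true, Nat.blt_eq] at h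
    rw [wordE, wordC, enc_mul, enc_tvw k h.1, enc_word (w := w) h.2]

/-! ### tables -/

/-- membership -/
def memN (x : ℕ) : List ℕ → Bool
  | [] => false
  | y :: ys => Nat.beq x y || memN x ys

/-- no repetitions -/
def nodupN : List ℕ → Bool
  | [] => true
  | x :: xs => !(memN x xs) && nodupN xs

theorem memN_of {x : ℕ} : ∀ {l : List ℕ}, x ∈ l → memN x l = true
  | y :: ys, h => by
    rw [memN, Bool.or_eq_true]
    rcases List.mem_cons.1 h with rfl | h
    · exact Or.inl (Nat.beq_refl x)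
    · exact Or.inr (memN_of h)

theorem nodupN_nodup : ∀ {l : List ℕ}, nodupN l = true → l.Nodup
  | [], _ => List.nodup_nil
  | x :: xs, h => by
    rw [nodupN, Bool.and_eq_true, Bool.not_eq_true'] at h
    refine List.nodup_cons.2 ⟨fun hx => ?_, nodupN_nodup h.2⟩
    rw [memN_of hx] at h
    exact absurd h.1 (by decide)

/-- one number for a code -/
def key (a : List ℕ) : ℕ := a.foldl (fun s x => 64 * s + x) 0

/-- data of a table -/
structure TD where
  E : List (List ℕ)
  Gw : List (List ℕ)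
  T : List (List ℕ)
  par : List (ℕ × ℕ)
  idx : List ℕ

/-- the check of a table -/
def chkT (D : TD) : Bool :=
  let G := D.Gw.map wordC
  D.Gw.all okW && beqL (D.E.getD 0 []) oneC && Nat.blt 0 D.E.length && nodupN (D.E.map key) &&
  (List.range D.E.length).all (fun i => (List.range D.Gw.length).all fun j =>
    Nat.blt ((D.T.getD i []).getD j 0) D.E.length &&
      beqL (mulC (D.E.getD i []) (G.getD j [])) (D.E.getD ((D.T.getD i []).getD j 0) [])) &&
  (List.range (D.E.length - 1)).all fun i =>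
    Nat.blt (D.par.getD i (0, 0)).1 (i + 1) && Nat.blt (D.par.getD i (0, 0)).2 D.Gw.length &&
      Nat.beq ((D.T.getD (D.par.getD i (0, 0)).1 []).getD (D.par.getD i (0, 0)).2 0) (i + 1)

/-- the generators -/
def TD.gen (D : TD) (j : ℕ) : Sp2 := wordE (D.Gw.getD j [])

/-- the table -/
def TD.t (D : TD) (i j : ℕ) : ℕ := (D.T.getD i []).getD j 0

theorem map_getD {w : List (List ℕ)} {j : ℕ} (hj : j < w.length) : (w.map wordC).getD j [] = wordC (w.getD j []) := by
  rw [List.getD_eq_getElem _ _ (by rw [List.length_map]; exact hj), List.getElem_map, List.getD_eq_getElem _ _ hj]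

theorem exists_tab {D : TD} (h : chkT D = true) : ∃ e : ℕ → Sp2, (∀ i < D.E.length, enc (e i) = D.E.getD i []) ∧
    Table D.E.length D.Gw.length e D.gen D.t := by
  classical
  unfold chkT at h
  simp only [Bool.and_eq_true, List.all_eq_true, List.mem_range, Nat.blt_eq] at h
  obtain ⟨⟨⟨⟨⟨hw, h0⟩, hpos⟩, hnd⟩, hT⟩, hp⟩ := h
  have hgen : ∀ j < D.Gw.length, enc (D.gen j) = (D.Gw.map wordC).getD j [] := by
    intro j hj
    rw [map_getD hj]
    refine enc_word (hw _ ?_)
    rw [List.getD_eq_getElem _ _ hj]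
    exact List.getElem_mem hj
  have hE0 := beqL_eq h0
  have key1 : ∀ i < D.E.length, ∃ g : Sp2, enc g = D.E.getD i [] := by
    intro i
    induction i using Nat.strong_induction_on with
    | _ i ih =>
      intro hi
      cases i with
      | zero => exact ⟨1, by rw [hE0, enc_one]⟩
      | succ i =>
        obtain ⟨⟨h1, h2⟩, h3⟩ := hp i (by omega)
        obtain ⟨g, hg⟩ := ih _ h1 (by omega)
        refine ⟨g * D.gen (D.par.getD i (0, 0)).2, ?_⟩
        have h4 := (hT _ (show (D.par.getD i (0, 0)).1 < D.E.length by omega) _ h2).2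
        rw [Nat.eq_of_beq_eq_true h3] at h4
        rw [enc_mul, hg, hgen _ h2]
        exact beqL_eq h4
  choose! e he using key1
  have hnd2 := nodupN_nodup hnd
  have hinj : ∀ i < D.E.length, ∀ i' < D.E.length, e i = e i' → i = i' := by
    intro i hi i' hi' hii
    have h1 : D.E.getD i [] = D.E.getD i' [] := by rw [← he i hi, ← he i' hi', hii]
    have h2 := List.nodup_iff_injective_get.1 hnd2
    have hl : (D.E.map key).length = D.E.length := List.length_map _
    have h3 := @h2 ⟨i, by rw [hl]; exact hi⟩ ⟨i', by rw [hl]; exact hi'⟩ (by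
      show (D.E.map key)[i] = (D.E.map key)[i']
      rw [List.getElem_map, List.getElem_map]
      rw [List.getD_eq_getElem _ _ hi, List.getD_eq_getElem _ _ hi'] at h1
      rw [h1])
    simpa using h3
  have hmul : ∀ i < D.E.length, ∀ j < D.Gw.length, e i * D.gen j = e (D.t i j) := by
    intro i hi j hj
    obtain ⟨h1, h2⟩ := hT i hi j hj
    apply enc_inj
    rw [enc_mul, he i hi, hgen j hj, beqL_eq h2]
    exact (he _ h1).symm
  refine ⟨e, he, ?_⟩
  constructor
  · exact hpos
  · exact enc_inj (by rw [he 0 hpos, hE0, enc_one])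
  · exact fun i hi j hj => (hT i hi j hj).1
  · exact hmul
  · intro j hj i hi i' hi' hii
    refine hinj i hi i' hi' (mul_right_cancel (b := D.gen j) ?_)
    rw [hmul i hi j hj, hmul i' hi' j hj, hii]
  · intro i hi h0'
    cases i with
    | zero => exact absurd rfl h0'
    | succ i =>
      obtain ⟨⟨h1, h2⟩, h3⟩ := hp i (by omega)
      exact ⟨_, h1, _, h2, Nat.eq_of_beq_eq_true h3⟩
  · intro i hi h0' h1
    apply h0'
    refine hinj i hi 0 hpos ?_
    rw [h1]
    exact (enc_inj (by rw [he 0 hpos, hE0, enc_one])).symm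

/-- the check of a prefix -/
def chkP (D : TD) (n m : ℕ) : Bool :=
  Nat.blt 0 n && Nat.ble n D.E.length && Nat.ble m D.Gw.length &&
  (List.range n).all (fun i => (List.range m).all fun j => Nat.blt ((D.T.getD i []).getD j 0) n) &&
  (List.range (n - 1)).all fun i =>
    Nat.blt (D.par.getD i (0, 0)).1 (i + 1) && Nat.blt (D.par.getD i (0, 0)).2 m &&
      Nat.beq ((D.T.getD (D.par.getD i (0, 0)).1 []).getD (D.par.getD i (0, 0)).2 0) (i + 1)

theorem restrict_tab {D : TD} {e : ℕ → Sp2} {n m : ℕ} (h : Table D.E.length D.Gw.length e D.gen D.t)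
    (hc : chkP D n m = true) : Table n m e D.gen D.t ∧ n ≤ D.E.length ∧ m ≤ D.Gw.length := by
  unfold chkP at hc
  simp only [Bool.and_eq_true, List.all_eq_true, List.mem_range, Nat.blt_eq, Nat.ble_eq] at hc
  obtain ⟨⟨⟨⟨h1, h2⟩, h3⟩, h4⟩, h5⟩ := hc
  refine ⟨h.restrict h1 h2 h3 h4 ?_, h2, h3⟩
  intro i hi h0
  cases i with
  | zero => exact absurd rfl h0
  | succ i =>
    obtain ⟨⟨h6, h7⟩, h8⟩ := h5 i (by omega)
    exact ⟨_, h6, _, h7, Nat.eq_of_beq_eq_true h8⟩

/-! ### the forest -/

/-- data of the forest: conjugating involutions, roots (as words), codes, parents, roots -/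
structure FD where
  Bw : List (List ℕ)
  Rw : List (List ℕ)
  Fo : List (List ℕ)
  par : List (ℕ × ℕ)
  root : List ℕ

/-- the check of the forest -/
def chkF (D : FD) : Bool :=
  let B := D.Bw.map wordC
  D.Bw.all okW && D.Rw.all okW && (B.all fun b => beqL (mulC b b) oneC) &&
  (List.range D.Rw.length).all (fun i => beqL (wordC (D.Rw.getD i [])) (D.Fo.getD i []) &&
    Nat.beq (D.root.getD i 0) i) &&
  (List.range (D.Fo.length - D.Rw.length)).all fun i =>
    let p := D.par.getD i (0, 0)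
    let b := B.getD p.1 []
    Nat.blt p.1 D.Bw.length && Nat.blt p.2 (D.Rw.length + i) &&
      beqL (mulC (mulC b (D.Fo.getD p.2 [])) b) (D.Fo.getD (D.Rw.length + i) []) &&
      Nat.beq (D.root.getD p.2 0) (D.root.getD (D.Rw.length + i) 0)

/-- the representatives -/
def FD.rep (D : FD) (k : ℕ) : Sp2 := wordE (D.Rw.getD k [])

theorem forest {D : FD} (h : chkF D = true) : ∀ i < D.Fo.length, ∃ g x : Sp2, enc g = D.Fo.getD i [] ∧
    D.root.getD i 0 < D.Rw.length ∧ g = x⁻¹ * D.rep (D.root.getD i 0) * x := by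
  unfold chkF at h
  simp only [Bool.and_eq_true, List.all_eq_true, List.mem_range, Nat.blt_eq] at h
  obtain ⟨⟨⟨⟨hb, hr⟩, hbb⟩, h1⟩, h2⟩ := h
  intro i
  induction i using Nat.strong_induction_on with
  | _ i ih =>
    intro hi
    by_cases hir : i < D.Rw.length
    · obtain ⟨h3, h4⟩ := h1 i hir
      have h5 := Nat.eq_of_beq_eq_true h4
      refine ⟨D.rep i, 1, ?_, by rw [h5]; exact hir, by rw [h5]; simp⟩
      rw [← beqL_eq h3]
      refine enc_word (hr _ ?_)
      rw [List.getD_eq_getElem _ _ hir]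
      exact List.getElem_mem hir
    · obtain ⟨j, rfl⟩ : ∃ j, i = D.Rw.length + j := ⟨i - D.Rw.length, by omega⟩
      obtain ⟨⟨⟨h4, h5⟩, h6⟩, h7⟩ := h2 j (by omega)
      obtain ⟨g, x, hg, hlt, hgx⟩ := ih (D.par.getD j (0, 0)).2 h5 (by omega)
      have hbm : D.Bw.getD (D.par.getD j (0, 0)).1 [] ∈ D.Bw := by
        rw [List.getD_eq_getElem _ _ h4]
        exact List.getElem_mem h4
      have hbe : enc (wordE (D.Bw.getD (D.par.getD j (0, 0)).1 [])) =
          (D.Bw.map wordC).getD (D.par.getD j (0, 0)).1 [] := by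
        rw [map_getD h4]
        exact enc_word (hb _ hbm)
      obtain ⟨b, hbdef⟩ : ∃ b, b = wordE (D.Bw.getD (D.par.getD j (0, 0)).1 []) := ⟨_, rfl⟩
      rw [← hbdef] at hbe
      have hb2 : b * b = 1 := by
        apply enc_inj
        rw [enc_mul, hbe, enc_one]
        exact beqL_eq (hbb _ (by
          rw [map_getD h4]
          exact List.mem_map_of_mem hbm))
      have hbi : b⁻¹ = b := inv_eq_of_mul_eq_one_left hb2
      refine ⟨b * g * b, x * b, ?_, ?_, ?_⟩
      · rw [enc_mul, enc_mul, hbe, hg]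
        exact beqL_eq h6
      · rw [← Nat.eq_of_beq_eq_true h7]
        exact hlt
      · rw [← Nat.eq_of_beq_eq_true h7, hgx, mul_inv_rev, hbi]
        group

/-- the check of the positions -/
def chkI (D : FD) (E : List (List ℕ)) (idx : List ℕ) : Bool :=
  (List.range E.length).all fun i =>
    Nat.blt (idx.getD i 0) D.Fo.length && beqL (E.getD i []) (D.Fo.getD (idx.getD i 0) [])

theorem conj_of_idx {D : FD} (h : chkF D = true) {E : List (List ℕ)} {idx : List ℕ} (hI : chkI D E idx = true)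
    {e : ℕ → Sp2} (he : ∀ i < E.length, enc (e i) = E.getD i []) {i : ℕ} (hi : i < E.length) :
    D.root.getD (idx.getD i 0) 0 < D.Rw.length ∧ ∃ x : Sp2, e i = x⁻¹ * D.rep (D.root.getD (idx.getD i 0) 0) * x := by
  unfold chkI at hI
  simp only [Bool.and_eq_true, List.all_eq_true, List.mem_range, Nat.blt_eq] at hI
  obtain ⟨h1, h2⟩ := hI i hi
  obtain ⟨g, x, hg, hlt, hgx⟩ := forest h _ h1
  have : e i = g := enc_inj (by rw [he i hi, hg, beqL_eq h2])
  exact ⟨hlt, x, this.trans hgx⟩

/-! ### fixed spaces -/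

/-- the vectors fixed by the words of a list -/
def fixW (F : Sp2 →* E) (ws : List (List ℕ)) : Submodule (ZMod 3) LL where
  carrier := {v | ∀ w ∈ ws, ac (F (wordE w)) v = v}
  add_mem' := fun ha hb g hg => by rw [ac_add, ha g hg, hb g hg]
  zero_mem' := fun g _ => ac_zero _
  smul_mem' := fun c v hv g hg => (Matrix.mulVec_smul _ _ _).trans (congrArg (fun w => c • w) (hv g hg))

theorem mem_fixW {F : Sp2 →* E} {ws : List (List ℕ)} {v : LL} :
    v ∈ fixW F ws ↔ ∀ w ∈ ws, ac (F (wordE w)) v = v := Iff.rfl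

theorem fixW_anti {F : Sp2 →* E} {ws ws' : List (List ℕ)} (h : ∀ w ∈ ws, w ∈ ws') : fixW F ws' ≤ fixW F ws :=
  fun _ hv w hw => hv w (h w hw)

/-- the stabiliser of a vector in `Sp₆(2)` -/
def stS (F : Sp2 →* E) (v : LL) : Subgroup Sp2 := (stab v).comap F

theorem mem_stS {F : Sp2 →* E} {v : LL} {g : Sp2} : g ∈ stS F v ↔ ac (F g) v = v := Iff.rfl

theorem tab_mem {n m : ℕ} {e s : ℕ → Sp2} {t : ℕ → ℕ → ℕ} (h : Table n m e s t) {H : Subgroup Sp2}
    (hs : ∀ j < m, s j ∈ H) : ∀ i < n, e i ∈ H := by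
  intro i
  induction i using Nat.strong_induction_on with
  | _ i ih =>
    intro hi
    by_cases h0 : i = 0
    · subst h0
      rw [h.one]
      exact H.one_mem
    · obtain ⟨i', hi', j, hj, hij⟩ := h.par i hi h0
      rw [← hij, ← h.mul i' (by omega) j hj]
      exact H.mul_mem (ih i' hi' (by omega)) (hs j hj)

theorem gen_mem {n m : ℕ} {e s : ℕ → Sp2} {t : ℕ → ℕ → ℕ} (h : Table n m e s t) {j : ℕ} (hj : j < m) :
    ∃ i < n, s j = e i := ⟨t 0 j, h.lt 0 h.pos j hj, by rw [← h.mul 0 h.pos j hj, h.one, one_mul]⟩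

theorem fixL_eq {D : TD} {n m : ℕ} {e : ℕ → Sp2} (h : Table n m e D.gen D.t) (hm : m ≤ D.Gw.length)
    (F : Sp2 →* E) : H942.L7.fixL F ((List.range n).map e) = fixW F (D.Gw.take m) := by
  have hg : ∀ j < m, D.Gw.getD j [] ∈ D.Gw.take m := by
    intro j hj
    rw [List.getD_eq_getElem _ _ (by omega)]
    have : (D.Gw.take m)[j]'(by rw [List.length_take]; omega) = D.Gw[j]'(by omega) := List.getElem_take
    rw [← this]
    exact List.getElem_mem _
  ext v
  constructor
  · intro hv w hw
    obtain ⟨j, hj, hjw⟩ := List.mem_iff_getElem.1 hw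
    rw [List.length_take] at hj
    have h1 : w = D.Gw.getD j [] := by
      rw [List.getD_eq_getElem _ _ (by omega), ← hjw]
      exact List.getElem_take
    obtain ⟨i, hi, h2⟩ := gen_mem h (show j < m by omega)
    have h3 := hv (e i) (List.mem_map_of_mem (List.mem_range.2 hi))
    rw [← h2] at h3
    rw [h1]
    exact h3
  · intro hv g hg'
    obtain ⟨i, hi, rfl⟩ := List.mem_map.1 hg'
    have h4 : e i ∈ stS F v := tab_mem h (fun j hj => hv _ (hg j hj)) i (List.mem_range.1 hi)
    exact h4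

theorem sum_range_list {A : Type*} [AddCommMonoid A] (n : ℕ) (f : ℕ → A) :
    ∑ i ∈ Finset.range n, f i = ((List.range n).map f).sum := by
  induction n with
  | zero => simp
  | succ n ih => rw [Finset.sum_range_succ, ih, List.range_succ, List.map_append, List.sum_append]; simp

section bc

variable {M : Ideal AlgInt} {V : ValuationSubring ℂ} [CharP (ResidueField V) 3]

/-- the sum of the values over a table -/
theorem tab_dim (hM : IsPModular 3 M) (hV : Above M V) (F : Sp2 →* E) {D : TD} {n m : ℕ} {e : ℕ → Sp2}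
    (h : Table n m e D.gen D.t) (hm : m ≤ D.Gw.length) (hn : n.Coprime 3) :
    ∑ i ∈ Finset.range n, bc 3 (adj V F) (e i) = (n : ℂ) * (finrank (ZMod 3) ↥(fixW F (D.Gw.take m)) : ℂ) := by
  have h1 := H451.L7.dim M V hM hV Sp2 F ((List.range n).map e)
    (List.Nodup.map_on (fun i hi j hj hij => h.injOn j (List.mem_range.1 hj) i (List.mem_range.1 hi) hij)
      List.nodup_range)
    (List.mem_map.2 ⟨0, List.mem_range.2 h.pos, h.one⟩)
    (by
      intro a ha b hb
      obtain ⟨i, hi, rfl⟩ := List.mem_map.1 ha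
      obtain ⟨j, hj, rfl⟩ := List.mem_map.1 hb
      obtain ⟨k, hk, hk'⟩ := h.mul_mem j (List.mem_range.1 hj) i (List.mem_range.1 hi)
      exact List.mem_map.2 ⟨k, List.mem_range.2 hk, hk'.symm⟩)
    (by rw [List.length_map, List.length_range]; exact hn)
  rw [fixL_eq h hm, List.length_map, List.length_range, List.map_map] at h1
  rw [← h1]
  exact sum_range_list n fun i => bc 3 (adj V F) (e i)

/-- **The equation of a table.** -/
theorem eqn (hM : IsPModular 3 M) (hV : Above M V) (F : Sp2 →* E) {D0 : FD} (hF : chkF D0 = true) {D : TD}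
    (hT : chkT D = true) (hI : chkI D0 D.E D.idx = true) {n m : ℕ} (hP : chkP D n m = true) (hn : n.Coprime 3)
    {t : ℕ → ℤ} (ht : ∀ k < D0.Rw.length, bc 3 (adj V F) (D0.rep k) = t k) :
    ∑ k ∈ Finset.range D0.Rw.length, (cntK n (fun i => D0.root.getD (D.idx.getD i 0) 0) k : ℤ) * t k =
      (n : ℤ) * (finrank (ZMod 3) ↥(fixW F (D.Gw.take m)) : ℤ) := by
  obtain ⟨e, he, hTab⟩ := exists_tab hT
  obtain ⟨hTab', hn', hm'⟩ := restrict_tab hTab hP
  have h1 := tab_dim hM hV F hTab' hm' hn
  have h2 : ∀ i ∈ Finset.range n, bc 3 (adj V F) (e i) = ((t (D0.root.getD (D.idx.getD i 0) 0) : ℤ) : ℂ) := by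
    intro i hi
    obtain ⟨h3, x, h4⟩ := conj_of_idx hF hI he (lt_of_lt_of_le (Finset.mem_range.1 hi) hn')
    rw [h4, bc_conj', ht _ h3]
  rw [Finset.sum_congr rfl h2, sum_of (r := D0.Rw.length) (f := fun i => D0.root.getD (D.idx.getD i 0) 0)
    (fun i hi => (conj_of_idx hF hI he (lt_of_lt_of_le hi hn')).1) (fun k => ((t k : ℤ) : ℂ))] at h1
  have h5 : (((∑ k ∈ Finset.range D0.Rw.length,
      (cntK n (fun i => D0.root.getD (D.idx.getD i 0) 0) k : ℤ) * t k : ℤ)) : ℂ) =
      (((n : ℤ) * (finrank (ZMod 3) ↥(fixW F (D.Gw.take m)) : ℤ) : ℤ) : ℂ) := by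
    push_cast
    rw [← h1]
    refine Finset.sum_congr rfl fun k _ => ?_
    rw [nsmul_eq_mul]
  exact_mod_cast h5

end bc

end Cfsg.Agent.H942.S62
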